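import Cfsg.Agent.H37.Tsuzuku.SmallKernel

/-!
# Doubly transitive groups of degree `p² + 1`: coordinates when the kernel is large
-/

set_option autoImplicit false

namespace Cfsg.Agent.H37.Tsuzuku

open Finset MulAction

set_option maxHeartbeats 400000

section Powers

variable {G : Type*} [Group G] {p : ℕ}

/-- Powers with exponents modulo `p`. -/
def zp (x : G) (z : ZMod p) : G := x ^ z.val

theorem zp_natCast {x : G} (hx : x ^ p = 1) (n : ℕ) : zp x (n : ZMod p) = x ^ n := by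
  rw [zp, ZMod.val_natCast]
  exact (pow_eq_pow_mod n hx).symm

theorem zp_zero (x : G) : zp x (0 : ZMod p) = 1 := by rw [zp, ZMod.val_zero, pow_zero]

theorem zp_one [Fact (1 < p)] (x : G) : zp x (1 : ZMod p) = x := by
  rw [zp, ZMod.val_one, pow_one]

theorem zp_add [NeZero p] {x : G} (hx : x ^ p = 1) (z w : ZMod p) :
    zp x (z + w) = zp x z * zp x w := by
  rw [zp, zp, zp, ← pow_add, ZMod.val_add]
  exact (pow_eq_pow_mod _ hx).symm

theorem zp_mul [NeZero p] {x : G} (hx : x ^ p = 1) (z w : ZMod p) :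
    zp x (z * w) = zp x z ^ w.val := by
  rw [zp, zp, ← pow_mul, ZMod.val_mul]
  exact (pow_eq_pow_mod _ hx).symm

theorem zp_mem {H : Subgroup G} {x : G} (hx : x ∈ H) (z : ZMod p) : zp x z ∈ H := pow_mem hx _

theorem commute_zp {x y : G} (h : Commute x y) (z w : ZMod p) : Commute (zp x z) (zp y w) :=
  h.pow_pow _ _

theorem conj_zp [NeZero p] {e x : G} {s : ZMod p} (hx : x ^ p = 1)
    (h : e * x * e⁻¹ = zp x s) (z : ZMod p) : e * zp x z * e⁻¹ = zp x (s * z) := by
  rw [zp_mul hx, ← h, conj_pow]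
  rfl

theorem zp_eq_one [Fact p.Prime] {x : G} (hx : x ^ p = 1) (hx1 : x ≠ 1) {z : ZMod p}
    (h : zp x z = 1) : z = 0 := by
  by_contra hz
  apply hx1
  have h1 := zp_mul hx z z⁻¹
  rwa [mul_inv_cancel₀ hz, h, one_pow, zp_one] at h1

theorem zp_inj [Fact p.Prime] {x : G} (hx : x ^ p = 1) (hx1 : x ≠ 1) {z w : ZMod p}
    (h : zp x z = zp x w) : z = w := by
  have h1 : zp x z = zp x (z - w) * zp x w := by rw [← zp_add hx, sub_add_cancel]
  rw [h, right_eq_mul] at h1
  exact sub_eq_zero.1 (zp_eq_one hx hx1 h1)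

end Powers

variable {G Ω : Type*} [Group G] [Finite G] [MulAction G Ω] [Fintype Ω] [DecidableEq Ω] {p : ℕ}

/-- The point with coordinates `i`, `j`. -/
def pt (y q : G) (b : Ω) (i j : ZMod p) : Ω := (zp y i * zp q j) • b

/-- Coordinates on the points other than `a`: the first is the block. -/
structure Coord (d : Data G Ω p) (a b : Ω) (q y e : G) (s : ZMod p) : Prop where
  ne : a ≠ b
  q_mem : q ∈ d.kern a
  y_stab : y • a = a
  q_pow : q ^ p = 1
  y_pow : y ^ p = 1
  q_ne : q ≠ 1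
  qy : Commute q y
  ey : Commute e y
  e_mem : e ∈ d.kern a
  e_fix : e • b = b
  s0 : s ≠ 0
  s1 : s ≠ 1
  conj : e * q * e⁻¹ = zp q s
  inj : ∀ i j i' j' : ZMod p, pt y q b i j = pt y q b i' j' → i = i' ∧ j = j'
  surj : ∀ u, u ≠ a → ∃ i j : ZMod p, pt y q b i j = u
  block : ∀ (i j : ZMod p) (u : Ω), u ∈ d.B a (pt y q b i j) ↔ ∃ j', pt y q b i j' = u
  cent : ∀ k ∈ d.kern a, k * q = q * k → k • b = b → k = 1

namespace Data

variable (d : Data G Ω p)
include d

theorem prime_sq_not_dvd {a b : Ω} (hab : a ≠ b) : ¬ p * p ∣ Nat.card (d.kern a) := by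
  intro h
  have h1 := h.trans (d.card_kern_dvd hab)
  rw [← Nat.mul_factorial_pred d.prime.ne_zero] at h1
  have h2 := (d.prime.dvd_factorial).1 (Nat.dvd_of_mul_dvd_mul_left d.prime.pos h1)
  have := d.prime.pos
  omega

theorem exists_normalizing {a b : Ω} {P : Subgroup G} (hP : RegSub p a P) (hab : a ≠ b)
    (hbig : Nat.card (d.kern a) ≠ p) :
    ∃ e ∈ d.kern a, e • b = b ∧ e ≠ 1 ∧ ∀ x ∈ P ⊓ d.kern a, e * x * e⁻¹ ∈ P ⊓ d.kern a := by
  classical
  haveI : Fact p.Prime := ⟨d.prime⟩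
  by_contra hc
  push Not at hc
  set S : Subgroup ↥(d.kern a) := (P ⊓ d.kern a).subgroupOf (d.kern a) with hS
  have hScard : Nat.card S = p := by
    rw [Nat.card_congr (Subgroup.subgroupOfEquivOfLe (inf_le_right : P ⊓ d.kern a ≤ _)).toEquiv,
      d.reg_card_inf hP]
  have hidx : ¬ p ∣ S.index := by
    intro h
    refine d.prime_sq_not_dvd hab ?_
    rw [← S.index_mul_card, hScard]
    exact Nat.mul_dvd_mul_right h p
  have hSp : IsPGroup p S := IsPGroup.of_card (n := 1) (by rw [hScard, pow_one])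
  let Sy := hSp.toSylow hidx
  have hnc : Subgroup.normalizer ((Sy : Subgroup ↥(d.kern a)) : Set ↥(d.kern a)) ≤
      Subgroup.centralizer ((Sy : Subgroup ↥(d.kern a)) : Set ↥(d.kern a)) := by
    intro n hn
    rw [Subgroup.mem_centralizer_iff]
    intro z hz
    have hnQ : (n : G) ∈ P := by
      obtain ⟨x, hx, hxb⟩ := d.reg_exists_smul hP hab.symm (n.2.2 b hab.symm)
      have h1 : x⁻¹ * (n : G) = 1 := by
        by_contra h1
        obtain ⟨w, hw, hw'⟩ := hc (x⁻¹ * n) (mul_mem (inv_mem hx.2) n.2)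
          (by rw [mul_smul, ← hxb, inv_smul_smul]) h1
        apply hw'
        have h2 := (Subgroup.mem_normalizer_iff.1 hn ⟨w, hw.2⟩).1
          (Subgroup.mem_subgroupOf.2 hw)
        have h3 : (n : G) * w * (n : G)⁻¹ ∈ P ⊓ d.kern a := Subgroup.mem_subgroupOf.1 h2
        rw [show x⁻¹ * (n : G) * w * (x⁻¹ * (n : G))⁻¹ = x⁻¹ * ((n : G) * w * (n : G)⁻¹) * x by
          group]
        exact mul_mem (mul_mem (inv_mem hx) h3) hx
      rw [← inv_mul_eq_one.1 h1]
      exact hx.1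
    exact Subtype.ext (hP.comm _ (Subgroup.mem_subgroupOf.1 hz).1 _ hnQ)
  obtain ⟨M0, hM0n, hcompl⟩ : ∃ M0 : Subgroup ↥(d.kern a),
      M0.Normal ∧ Nat.card M0 * Nat.card S = Nat.card ↥(d.kern a) :=
    ⟨(MonoidHom.transferSylow Sy hnc).ker, MonoidHom.normal_ker (MonoidHom.transferSylow Sy hnc),
      (MonoidHom.ker_transferSylow_isComplement' Sy hnc).card_mul⟩
  set M := M0.map (d.kern a).subtype with hM
  have hMcard : Nat.card M * p = Nat.card (d.kern a) := by
    rw [hM, Subgroup.card_map_of_injective (Subgroup.subtype_injective _)]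
    rwa [hScard] at hcompl
  have hMp : ¬ p ∣ Nat.card M := fun h =>
    d.prime_sq_not_dvd hab (hMcard ▸ Nat.mul_dvd_mul_right h p)
  have hMle : M ≤ d.kern a := Subgroup.map_subtype_le M0
  have hnorm : ∀ x ∈ d.kern a, ∀ n ∈ M, x * n * x⁻¹ ∈ M := by
    intro x hx n hn
    obtain ⟨n0, hn0, rfl⟩ := Subgroup.mem_map.1 hn
    exact Subgroup.mem_map.2 ⟨⟨x, hx⟩ * n0 * ⟨x, hx⟩⁻¹,
      hM0n.conj_mem n0 hn0 _, rfl⟩
  have hbot : M = ⊥ := (Subgroup.eq_bot_iff_forall _).2 fun m hm => d.faithful m fun x => by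
    by_cases hxa : x = a
    · rw [hxa]; exact (hMle hm).1
    obtain ⟨-, hdvd⟩ := orb_card (d.kern a) M (d.B a x) (fun u hu v hv => by
        have h1 : v ∈ d.B a u := by
          rw [d.eq_of_mem a x u (Ne.symm hxa) hu]; exact hv
        exact d.exists_kern_smul (d.kern_ne_bot a) (d.ne_of_mem (Ne.symm hxa) hu).symm h1)
      hnorm (d.kern_orb_subset hMle (Ne.symm hxa)) (u := x) (d.mem_self a x (Ne.symm hxa))
    rw [d.card_B a x (Ne.symm hxa)] at hdvd
    rcases (Nat.dvd_prime d.prime).1 hdvd with h | h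
    · obtain ⟨w, hw⟩ := Finset.card_eq_one.1 h
      have e1 : x ∈ orb M x := mem_orb.2 ⟨1, one_mem _, one_smul G x⟩
      have e2 : m • x ∈ orb M x := mem_orb.2 ⟨m, hm, rfl⟩
      rw [hw, Finset.mem_singleton] at e1 e2
      rw [e2, ← e1]
    · exfalso
      obtain ⟨g, hg, ⟨k, hk⟩, hgx⟩ := exists_pElement_moves M x (by rw [h])
      refine hgx ?_
      have h1 : orderOf g ∣ Nat.card M := by
        rw [← Subgroup.orderOf_mk g hg]; exact orderOf_dvd_natCard _
      have h2 := Nat.eq_one_of_dvd_coprimes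
        (Nat.Coprime.pow_left k ((Nat.Prime.coprime_iff_not_dvd d.prime).2 hMp))
        (orderOf_dvd_of_pow_eq_one hk) h1
      rw [orderOf_eq_one_iff.1 h2, one_smul]
  rw [hbot, Subgroup.card_bot, one_mul] at hMcard
  exact hbig hMcard.symm

theorem exists_coord {a b : Ω} (hab : a ≠ b) (hbig : Nat.card (d.kern a) ≠ p) :
    ∃ (q y e : G) (s : ZMod p), Coord d a b q y e s := by
  classical
  haveI : Fact p.Prime := ⟨d.prime⟩
  obtain ⟨P, hP⟩ := d.exists_reg a
  obtain ⟨q, hq, hq1⟩ := exists_ne_one (H := P ⊓ d.kern a) (fun h => by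
    have := d.reg_card_inf hP
    rw [h, Subgroup.card_bot] at this
    exact d.prime.one_lt.ne this)
  have hqp : q ^ p = 1 := by
    have h1 : (⟨q, hq⟩ : ↥(P ⊓ d.kern a)) ^ Nat.card ↥(P ⊓ d.kern a) = 1 := pow_card_eq_one'
    rw [d.reg_card_inf hP] at h1
    exact congrArg Subtype.val h1
  have hQ : ∀ x ∈ P ⊓ d.kern a, ∃ z : ZMod p, zp q z = x := by
    intro x hx
    have hx1 : (⟨q, hq⟩ : ↥(P ⊓ d.kern a)) ≠ 1 := fun h => hq1 (congrArg Subtype.val h)
    obtain ⟨n, hn⟩ := Submonoid.mem_powers_iff _ _ |>.1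
      (mem_powers_of_prime_card (g' := (⟨x, hx⟩ : ↥(P ⊓ d.kern a))) (d.reg_card_inf hP) hx1)
    exact ⟨n, (zp_natCast hqp n).trans (congrArg Subtype.val hn)⟩
  have hcent : ∀ k ∈ d.kern a, k * q = q * k → k • b = b → k = 1 := by
    intro k hk hkq hkb
    refine hP.semi k (d.reg_centralizer hP hk fun x hx => ?_) b hab.symm hkb
    obtain ⟨z, rfl⟩ := hQ x hx
    exact (Commute.pow_right hkq _).eq
  obtain ⟨e, he, heb, he1, heN⟩ := d.exists_normalizing hP hab hbig
  obtain ⟨s, hs⟩ := hQ _ (heN q hq)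
  have hs0 : s ≠ 0 := fun h => hq1 (by
    rw [h, zp_zero] at hs
    exact conj_eq_one_iff.1 hs.symm)
  have hs1 : s ≠ 1 := fun h => he1 (hcent e he (by
    rw [h, zp_one] at hs
    exact mul_inv_eq_iff_eq_mul.1 hs.symm) heb)
  -- an element of `P` outside the kernel whose translate of `b` is fixed by `e`
  obtain ⟨y₀, hy₀, hy₀K⟩ : ∃ y ∈ P, y ∉ d.kern a := by
    by_contra hc
    push Not at hc
    have h1 := Subgroup.card_le_of_le (le_inf le_rfl hc : P ≤ P ⊓ d.kern a)
    rw [hP.card, d.reg_card_inf hP] at h1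
    have := d.two_lt
    nlinarith
  have hu : y₀ • b ≠ a := d.smul_ne (hP.le hy₀) hab.symm
  obtain ⟨r, hr, hru⟩ := d.reg_exists_smul hP hu (he.2 _ hu)
  obtain ⟨j, rfl⟩ := hQ r hr
  set y := zp q (j / (1 - s)) * y₀ with hy
  have hyP : y ∈ P := mul_mem (zp_mem hq.1 _) hy₀
  have hyK : y ∉ d.kern a := fun h => hy₀K (by
    have h1 := mul_mem (inv_mem (zp_mem hq.2 (j / (1 - s)))) h
    rwa [hy, inv_mul_cancel_left] at h1)
  have heyb : e • y • b = y • b := by
    have h1 : e * zp q (j / (1 - s)) = zp q (s * (j / (1 - s))) * e :=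
      mul_inv_eq_iff_eq_mul.1 (conj_zp hqp hs.symm _)
    rw [hy, mul_smul, ← mul_smul, h1, mul_smul, ← hru, ← mul_smul, ← zp_add hqp]
    congr 2
    have h2 : (1 : ZMod p) - s ≠ 0 := sub_ne_zero.2 (Ne.symm hs1)
    field_simp
    ring
  have hya : y • a = a := hP.le hyP
  have hqy : Commute q y := hP.comm q hq.1 y hyP
  have hey : Commute e y := by
    have hx : y⁻¹ * e * y ∈ d.kern a := d.kern_conj_mem' hya he
    have hxb : (y⁻¹ * e * y) • b = b := by rw [mul_smul, mul_smul, heyb, inv_smul_smul]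
    have h3 : y⁻¹ * e * y * q * (y⁻¹ * e * y)⁻¹ = zp q s := by
      have hyq : y * q * y⁻¹ = q := by rw [← hqy.eq, mul_inv_cancel_right]
      have hyqs : y⁻¹ * zp q s * y = zp q s := by
        show y⁻¹ * q ^ s.val * y = q ^ s.val
        rw [mul_assoc, (hqy.pow_left _).eq, ← mul_assoc, inv_mul_cancel, one_mul]
      rw [show y⁻¹ * e * y * q * (y⁻¹ * e * y)⁻¹ = y⁻¹ * (e * (y * q * y⁻¹) * e⁻¹) * y by group,
        hyq, ← hs, hyqs]
    have h4 : e⁻¹ * (y⁻¹ * e * y) = 1 := by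
      refine hcent _ (mul_mem (inv_mem he) hx) ?_ (by
        rw [mul_smul, hxb, inv_smul_eq_iff, heb])
      have h5 : y⁻¹ * e * y * q = zp q s * (y⁻¹ * e * y) := mul_inv_eq_iff_eq_mul.1 h3
      have h6 : e * q = zp q s * e := mul_inv_eq_iff_eq_mul.1 hs.symm
      calc e⁻¹ * (y⁻¹ * e * y) * q = e⁻¹ * (zp q s * (y⁻¹ * e * y)) := by rw [mul_assoc, h5]
        _ = e⁻¹ * (zp q s * e) * (e⁻¹ * (y⁻¹ * e * y)) := by group
        _ = q * (e⁻¹ * (y⁻¹ * e * y)) := by rw [← h6, inv_mul_cancel_left]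
    have h7 : y * e = e * y := by
      have := inv_mul_eq_one.1 h4
      calc y * e = y * (y⁻¹ * e * y) := by rw [← this]
        _ = e * y := by group
    exact h7.symm
  have hyp : y ^ p = 1 := by
    set S : Subgroup ↥P := (P ⊓ d.kern a).subgroupOf P with hS
    haveI : S.Normal := ⟨fun n hn g => by
      rwa [show g * n * g⁻¹ = n from by
        rw [show g * n = n * g from Subtype.ext (hP.comm _ g.2 _ n.2), mul_inv_cancel_right]]⟩
    have hSidx : S.index = p := by
      have h1 := S.index_mul_card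
      rw [Nat.card_congr (Subgroup.subgroupOfEquivOfLe (inf_le_left : P ⊓ d.kern a ≤ P)).toEquiv,
        d.reg_card_inf hP, hP.card, pow_two] at h1
      exact Nat.eq_of_mul_eq_mul_right d.prime.pos h1
    have h1 := S.pow_index_mem (⟨y, hyP⟩ : ↥P)
    rw [hSidx] at h1
    have h2 : y ^ p ∈ P ⊓ d.kern a := by
      have := Subgroup.mem_subgroupOf.1 h1
      simpa using this
    obtain ⟨m, hm⟩ := hQ _ h2
    have h3 : e * zp q m * e⁻¹ = zp q m := by
      rw [hm, (hey.pow_right p).eq, mul_inv_cancel_right]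
    rw [conj_zp hqp hs.symm] at h3
    have h4 : (s - 1) * m = 0 := by rw [sub_mul, one_mul, zp_inj hqp hq1 h3, sub_self]
    rw [← hm, (mul_eq_zero.1 h4).resolve_left (sub_ne_zero.2 hs1), zp_zero]
  have hyK' : ∀ i : ZMod p, zp y i ∈ d.kern a → i = 0 := by
    intro i hi
    by_contra hi0
    apply hyK
    have h1 := zp_mul hyp i i⁻¹
    rw [mul_inv_cancel₀ hi0, zp_one] at h1
    rw [h1]; exact pow_mem hi _
  have hmemP : ∀ i j : ZMod p, zp y i * zp q j ∈ P := fun i j =>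
    mul_mem (zp_mem hyP i) (zp_mem hq.1 j)
  have hsum : ∀ i j i' j' : ZMod p,
      zp y (i + i') * zp q (j + j') = (zp y i * zp q j) * (zp y i' * zp q j') := by
    intro i j i' j'
    rw [zp_add hyp, zp_add hqp]
    exact ((commute_zp hqy.symm i' j).mul_mul_mul_comm (zp y i) (zp q j')).symm ▸ rfl
  have hne : ∀ i j : ZMod p, pt y q b i j ≠ a := fun i j =>
    d.smul_ne (hP.le (hmemP i j)) hab.symm
  have hinj : ∀ i j i' j' : ZMod p, pt y q b i j = pt y q b i' j' → i = i' ∧ j = j' := by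
    intro i j i' j' h
    have h1 : zp y (i - i') * zp q (j - j') = 1 := by
      refine hP.semi _ (hmemP _ _) (pt y q b i' j') (hne i' j') ?_
      show (zp y (i - i') * zp q (j - j')) • ((zp y i' * zp q j') • b) = _
      rw [← mul_smul, ← hsum, sub_add_cancel, sub_add_cancel]
      exact h
    have h2 : i - i' = 0 := hyK' _ (by
      rw [eq_inv_of_mul_eq_one_left h1]; exact inv_mem (zp_mem hq.2 _))
    rw [h2, zp_zero, one_mul] at h1
    exact ⟨sub_eq_zero.1 h2, sub_eq_zero.1 (zp_eq_one hqp hq1 h1)⟩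
  have hsurj : ∀ u, u ≠ a → ∃ i j : ZMod p, pt y q b i j = u := by
    intro u hu
    have h1 : (Finset.univ : Finset (ZMod p × ZMod p)).image (fun z => pt y q b z.1 z.2) =
        Finset.univ.erase a := by
      refine Finset.eq_of_subset_of_card_le (fun w hw => ?_) ?_
      · obtain ⟨z, -, rfl⟩ := Finset.mem_image.1 hw
        exact Finset.mem_erase.2 ⟨hne _ _, Finset.mem_univ _⟩
      · rw [d.card_erase, Finset.card_image_of_injective _ fun z w h =>
          Prod.ext (hinj _ _ _ _ h).1 (hinj _ _ _ _ h).2, Finset.card_univ, Fintype.card_prod,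
          ZMod.card, pow_two]
    obtain ⟨z, -, hz⟩ := Finset.mem_image.1
      (h1.symm ▸ Finset.mem_erase.2 ⟨hu, Finset.mem_univ u⟩ :
        u ∈ (Finset.univ : Finset (ZMod p × ZMod p)).image (fun z => pt y q b z.1 z.2))
    exact ⟨z.1, z.2, hz⟩
  refine ⟨q, y, e, s, hab, hq.2, hya, hqp, hyp, hq1, hqy, hey, he, heb, hs0, hs1, hs.symm, hinj,
    hsurj, fun i j u => ⟨fun h => ?_, ?_⟩, hcent⟩
  · obtain ⟨i', j', rfl⟩ := hsurj u (d.ne_of_mem (hne i j).symm h)
    refine ⟨j', ?_⟩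
    have h1 : zp y (i' - i) * zp q (j' - j) ∈ d.kern a := by
      refine d.reg_mem_kern hP (hmemP _ _) (hne i j) ?_
      show (zp y (i' - i) * zp q (j' - j)) • ((zp y i * zp q j) • b) ∈ _
      rw [← mul_smul, ← hsum, sub_add_cancel, sub_add_cancel]
      exact h
    have h2 := mul_mem h1 (inv_mem (zp_mem hq.2 (j' - j)))
    rw [mul_inv_cancel_right] at h2
    rw [sub_eq_zero.1 (hyK' _ h2)]
  · rintro ⟨j', rfl⟩
    have h1 : zp q (j' - j) ∈ d.kern a := zp_mem hq.2 _
    have h2 := h1.2 _ (hne i j)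
    have h3 : zp q (j' - j) • pt y q b i j = pt y q b i j' := by
      show zp q (j' - j) • ((zp y i * zp q j) • b) = (zp y i * zp q j') • b
      rw [← mul_smul, show zp q (j' - j) = zp y (0 : ZMod p) * zp q (j' - j) by rw [zp_zero, one_mul], ← hsum,
        zero_add, sub_add_cancel]
    rwa [h3] at h2

end Data

end Cfsg.Agent.H37.Tsuzuku
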