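import Mathlib

/-!
# A set of residues whose `p`-fold sums are equidistributed

A set `D ∋ 0` of residues modulo a prime `p`, stable under a multiplier `s ≠ 1`, such that all
non-zero residues are represented equally often as sums of `p` members of `D`, is `{0}` or
everything.
-/

set_option autoImplicit false

namespace Cfsg.Agent.H37.Tsuzuku

open Polynomial Finset

variable {p : ℕ} [Fact p.Prime]

/-- An additive character modulo `p`. -/
noncomputable def chi (ζ : ℂ) (z : ZMod p) : ℂ := ζ ^ z.val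

theorem chi_add {ζ : ℂ} (hζ : IsPrimitiveRoot ζ p) (z w : ZMod p) :
    chi ζ (z + w) = chi ζ z * chi ζ w := by
  rw [chi, chi, chi, ← pow_add, ZMod.val_add]
  exact (pow_eq_pow_mod _ hζ.pow_eq_one).symm

theorem chi_zero (ζ : ℂ) : chi ζ (0 : ZMod p) = 1 := by simp [chi]

theorem sum_chi {ζ : ℂ} (hζ : IsPrimitiveRoot ζ p) : ∑ z : ZMod p, chi ζ z = 0 := by
  have h := hζ.geom_sum_eq_zero (Fact.out (p := p.Prime)).one_lt
  rw [← h]
  exact Finset.sum_bij (fun z _ => z.val) (fun z _ => Finset.mem_range.2 z.val_lt)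
    (fun a _ b _ e => ZMod.val_injective p e)
    (fun i hi => ⟨(i : ZMod p), Finset.mem_univ _, ZMod.val_cast_of_lt (Finset.mem_range.1 hi)⟩)
    (fun z _ => rfl)

theorem sum_chi_mul {ζ : ℂ} (hζ : IsPrimitiveRoot ζ p) {m : ZMod p} (hm : m ≠ 0) :
    ∑ z : ZMod p, chi ζ (m * z) = 0 := by
  rw [← sum_chi hζ]
  exact Equiv.sum_comp (Equiv.mulLeft₀ m hm) (fun z : ZMod p => chi ζ z)

/-- An integer relation between the roots of unity has constant coefficients. -/
theorem const_of_relation {ζ : ℂ} (hζ : IsPrimitiveRoot ζ p) (c : ZMod p → ℤ)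
    (h : ∑ z : ZMod p, (c z : ℂ) * chi ζ z = 0) : ∀ z w : ZMod p, c z = c w := by
  classical
  have hp : p.Prime := Fact.out
  set P : ℚ[X] := ∑ z : ZMod p, C (c z : ℚ) * X ^ z.val with hP
  have haev : aeval ζ P = 0 := by
    rw [hP, map_sum, ← h]
    exact Finset.sum_congr rfl fun z _ => by simp [chi]
  have hdvd : cyclotomic p ℚ ∣ P := by
    rw [cyclotomic_eq_minpoly_rat hζ hp.pos]
    exact minpoly.dvd ℚ ζ haev
  have hcoef : ∀ z : ZMod p, P.coeff z.val = (c z : ℚ) := by
    intro z
    rw [hP, finset_sum_coeff, Finset.sum_eq_single z]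
    · simp
    · intro w _ hw
      rw [coeff_C_mul_X_pow, if_neg fun e => hw (ZMod.val_injective p e.symm)]
    · simp
  have hdeg : P.natDegree ≤ p - 1 := by
    refine natDegree_sum_le_of_forall_le _ _ fun z _ => ?_
    exact (natDegree_C_mul_X_pow_le _ _).trans (Nat.le_sub_one_of_lt z.val_lt)
  obtain ⟨Q, hQ⟩ := hdvd
  have hcyc : (cyclotomic p ℚ).natDegree = p - 1 := by
    rw [natDegree_cyclotomic, Nat.totient_prime hp]
  have hQc : Q = C (Q.coeff 0) := by
    by_cases hQ0 : Q = 0
    · simp [hQ0]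
    apply eq_C_of_natDegree_eq_zero
    rw [hQ, natDegree_mul (cyclotomic_ne_zero p ℚ) hQ0, hcyc] at hdeg
    omega
  have hc : ∀ z : ZMod p, (c z : ℚ) = Q.coeff 0 := by
    intro z
    rw [← hcoef, hQ, hQc, coeff_mul_C, coeff_C_zero, cyclotomic_prime, finset_sum_coeff]
    rw [Finset.sum_eq_single z.val]
    · simp
    · intro i _ hi
      rw [coeff_X_pow, if_neg (Ne.symm hi)]
    · intro hn
      exact absurd (Finset.mem_range.2 z.val_lt) hn
  intro z w
  exact_mod_cast (hc z).trans (hc w).symm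

theorem eq_univ_of_translate {D : Finset (ZMod p)} (hD : D.Nonempty) {t : ZMod p} (ht : t ≠ 0)
    (h : ∀ d ∈ D, d + t ∈ D) : D = Finset.univ := by
  obtain ⟨d, hd⟩ := hD
  have hk : ∀ k : ℕ, d + k * t ∈ D := by
    intro k
    induction k with
    | zero => simpa using hd
    | succ k ih =>
      rw [show d + ((k + 1 : ℕ) : ZMod p) * t = d + k * t + t by push_cast; ring]
      exact h _ ih
  refine Finset.eq_univ_of_forall fun z => ?_
  have := hk ((z - d) * t⁻¹).val
  rwa [ZMod.natCast_val, ZMod.cast_id, mul_assoc, inv_mul_cancel₀ ht, mul_one,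
    add_sub_cancel] at this

/-- The main step. -/
theorem eq_singleton_zero (D : Finset (ZMod p)) (h0 : (0 : ZMod p) ∈ D) (hne : D ≠ Finset.univ)
    (s : ZMod p) (hs0 : s ≠ 0) (hs1 : s ≠ 1) (hsD : ∀ d ∈ D, s * d ∈ D) (f : ℕ → ZMod p → ℕ)
    (f0 : ∀ z, f 0 z = if z = 0 then 1 else 0) (fsucc : ∀ i z, f (i + 1) z = ∑ d ∈ D, f i (z - d))
    (hconst : ∀ z : ZMod p, z ≠ 0 → f p z = f p 1) : D = {0} := by
  classical
  have hp : p.Prime := Fact.out
  have hζ := Complex.isPrimitiveRoot_exp p hp.ne_zero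
  set ζ := Complex.exp (2 * Real.pi * Complex.I / p)
  let g : ZMod p → ℂ := fun m => ∑ d ∈ D, chi ζ (m * d)
  let G : ℕ → ZMod p → ℂ := fun i m => ∑ z, (f i z : ℂ) * chi ζ (m * z)
  have hG0 : ∀ m, G 0 m = 1 := by
    intro m
    simp only [G, f0]
    rw [Finset.sum_eq_single 0]
    · simp [chi_zero]
    · intro z _ hz; simp [hz]
    · simp
  have hGs : ∀ i m, G (i + 1) m = g m * G i m := by
    intro i m
    simp only [G, g, fsucc, Nat.cast_sum, Finset.sum_mul, Finset.mul_sum]
    rw [Finset.sum_comm]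
    conv_rhs => rw [Finset.sum_comm]
    refine Finset.sum_congr rfl fun d _ => ?_
    rw [← Equiv.sum_comp (Equiv.addRight d) (fun z => (f i (z - d) : ℂ) * chi ζ (m * z))]
    refine Finset.sum_congr rfl fun z _ => ?_
    simp only [Equiv.coe_addRight, add_sub_cancel_right, mul_add, chi_add hζ]
    ring
  have hGp : ∀ i m, G i m = g m ^ i := by
    intro i
    induction i with
    | zero => intro m; rw [hG0, pow_zero]
    | succ i ih => intro m; rw [hGs, ih, pow_succ']
  have hval : ∀ m : ZMod p, m ≠ 0 → g m ^ p = (f p 0 : ℂ) - (f p 1 : ℂ) := by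
    intro m hm
    rw [← hGp]
    have h1 : G p m = ∑ z : ZMod p, ((f p 1 : ℂ) * chi ζ (m * z) +
        if z = 0 then ((f p 0 : ℂ) - f p 1) else 0) := by
      refine Finset.sum_congr rfl fun z _ => ?_
      by_cases hz : z = 0
      · subst hz; simp [chi_zero]
      · simp [hz, hconst z hz]
    rw [h1, Finset.sum_add_distrib, ← Finset.mul_sum, sum_chi_mul hζ hm, mul_zero, zero_add,
      Finset.sum_ite_eq' Finset.univ (0 : ZMod p)]
    simp
  have hg1 : g 1 ≠ 0 := by
    intro h
    have hrel : ∑ z : ZMod p, (((if z ∈ D then 1 else 0 : ℤ)) : ℂ) * chi ζ z = 0 := by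
      rw [← h]
      simp [g, Finset.sum_ite_mem]
    obtain ⟨z, hz⟩ : ∃ z, z ∉ D := by
      by_contra hc
      push Not at hc
      exact hne (Finset.eq_univ_of_forall hc)
    have := const_of_relation hζ _ hrel 0 z
    simp [h0, hz] at this
  have hmul : ∀ m : ZMod p, m ≠ 0 → ∃ j : ZMod p, ∀ z, z ∈ D.image (m * ·) ↔ z ∈ D.image (· + j) := by
    intro m hm
    have hω : (g m / g 1) ^ p = 1 := by
      rw [div_pow, hval m hm, ← hval 1 one_ne_zero, div_self (pow_ne_zero _ hg1)]
    haveI : NeZero p := ⟨hp.ne_zero⟩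
    obtain ⟨i, hi, hie⟩ := hζ.eq_pow_of_pow_eq_one hω
    refine ⟨(i : ZMod p), ?_⟩
    have hgm : g m = chi ζ (i : ZMod p) * g 1 := by
      rw [chi, ZMod.val_cast_of_lt hi, hie, div_mul_cancel₀ _ hg1]
    set A := D.image (m * ·) with hA
    set B := D.image (· + (i : ZMod p)) with hB
    have hAs : ∑ z ∈ A, chi ζ z = g m := by
      rw [hA, Finset.sum_image fun a _ b _ e => mul_left_cancel₀ hm e]
    have hBs : ∑ z ∈ B, chi ζ z = g m := by
      rw [hgm, hB, Finset.sum_image fun a _ b _ e => add_right_cancel e]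
      simp only [g, Finset.mul_sum, one_mul]
      exact Finset.sum_congr rfl fun d _ => by rw [chi_add hζ, mul_comm]
    have hrel : ∑ z : ZMod p, (((if z ∈ A then 1 else 0 : ℤ) - (if z ∈ B then 1 else 0 : ℤ) : ℤ) : ℂ)
        * chi ζ z = 0 := by
      push_cast
      simp [sub_mul, Finset.sum_sub_distrib, Finset.sum_ite_mem, hAs, hBs]
    have hc := const_of_relation hζ _ hrel
    intro z
    have hcard : A.card = B.card := by
      rw [hA, hB, Finset.card_image_of_injective _ (mul_right_injective₀ hm),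
        Finset.card_image_of_injective _ (add_left_injective _)]
    constructor
    · intro hzA
      by_contra hzB
      have hsub : B ⊆ A := fun w hwB => by
        by_contra hwA
        have := hc z w
        simp [hzA, hzB, hwA, hwB] at this
      exact hzB (Finset.eq_of_subset_of_card_le hsub hcard.le ▸ hzA)
    · intro hzB
      by_contra hzA
      have hsub : A ⊆ B := fun w hwA => by
        by_contra hwB
        have := hc z w
        simp [hzA, hzB, hwA, hwB] at this
      exact hzA (Finset.eq_of_subset_of_card_le hsub hcard.ge ▸ hzB)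
  have hsinv : D.image (s * ·) = D :=
    Finset.eq_of_subset_of_card_le (fun z hz => by
      obtain ⟨d, hd, rfl⟩ := Finset.mem_image.1 hz
      exact hsD d hd) (by rw [Finset.card_image_of_injective _ (mul_right_injective₀ hs0)])
  by_contra hD0
  obtain ⟨d₀, hd₀, hd₀0⟩ : ∃ d ∈ D, d ≠ 0 := by
    by_contra hc
    push Not at hc
    exact hD0 (Finset.eq_singleton_iff_unique_mem.2 ⟨h0, hc⟩)
  refine hne (Finset.eq_univ_of_forall fun z => ?_)
  by_cases hz : z = 0
  · exact hz ▸ h0
  obtain ⟨j, hj⟩ := hmul (z / d₀) (div_ne_zero hz hd₀0)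
  have hj0 : j = 0 := by
    by_contra hjne
    refine hne (eq_univ_of_translate ⟨0, h0⟩ (t := s * j - j) ?_ fun d hd => ?_)
    · rw [show s * j - j = (s - 1) * j by ring]
      exact mul_ne_zero (sub_ne_zero.2 hs1) hjne
    · -- `D + j = s (D + j)`
      have h1 : d ∈ D.image (s * ·) := by rwa [hsinv]
      obtain ⟨d', hd', hdd⟩ := Finset.mem_image.1 h1
      obtain ⟨e, he, hee⟩ := Finset.mem_image.1 ((hj (d' + j)).2 (Finset.mem_image_of_mem _ hd'))
      have h2 : z / d₀ * (s * e) ∈ D.image (z / d₀ * ·) := Finset.mem_image_of_mem _ (hsD e he)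
      obtain ⟨d'', hd'', hd''e⟩ := Finset.mem_image.1 ((hj _).1 h2)
      have h3 : d'' = d + (s * j - j) := by
        rw [← hdd]
        linear_combination hd''e + s * hee
      exact h3 ▸ hd''
  have h4 : z ∈ D.image (· + j) :=
    (hj z).1 (Finset.mem_image.2 ⟨d₀, hd₀, div_mul_cancel₀ z hd₀0⟩)
  rw [hj0] at h4
  simpa using h4

end Cfsg.Agent.H37.Tsuzuku
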