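import Mathlib

/-!
# Doubly transitive groups of degree `p² + 1` with imprimitive point stabilisers: basic facts

`B a b` is the block of `b` for the stabiliser of `a`.
-/

set_option autoImplicit false

namespace Cfsg.Agent.H37.Tsuzuku

open Finset

/-- A two-transitive group of degree `p² + 1` with blocks of size `p` for each point stabiliser. -/
structure Data (G Ω : Type*) [Group G] [MulAction G Ω] (p : ℕ) where
  prime : p.Prime
  two_lt : 2 < p
  card : Nat.card Ω = p ^ 2 + 1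
  faithful : ∀ g : G, (∀ x : Ω, g • x = x) → g = 1
  two : ∀ a b c d : Ω, a ≠ b → c ≠ d → ∃ g : G, g • a = c ∧ g • b = d
  B : Ω → Ω → Finset Ω
  not_mem : ∀ a b : Ω, a ≠ b → a ∉ B a b
  mem_self : ∀ a b : Ω, a ≠ b → b ∈ B a b
  card_B : ∀ a b : Ω, a ≠ b → (B a b).card = p
  eq_of_mem : ∀ a b c : Ω, a ≠ b → c ∈ B a b → B a c = B a b
  smul_mem : ∀ (g : G) (a b c : Ω), g • c ∈ B (g • a) (g • b) ↔ c ∈ B a b

section Classes

variable {Ω : Type*} [DecidableEq Ω]

/-- Classes of equal size divide the size of the set. -/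
theorem card_dvd_of_classes (S : Finset Ω) (C : Ω → Finset Ω) (hmem : ∀ u ∈ S, u ∈ C u)
    (hsub : ∀ u ∈ S, C u ⊆ S) (heq : ∀ u ∈ S, ∀ v ∈ C u, C v = C u) {s : ℕ}
    (hs : ∀ u ∈ S, (C u).card = s) : s ∣ S.card := by
  classical
  rw [Finset.card_eq_sum_card_image C S]
  refine Finset.dvd_sum fun X hX => ?_
  obtain ⟨u, hu, rfl⟩ := Finset.mem_image.1 hX
  rw [show S.filter (fun v => C v = C u) = C u from Finset.ext fun v => by
    simp only [Finset.mem_filter]
    exact ⟨fun h => h.2 ▸ hmem v h.1, fun h => ⟨hsub u hu h, heq u hu v h⟩⟩, hs u hu]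

end Classes

section Orbits

variable {G Ω : Type*} [Group G] [MulAction G Ω] [Fintype Ω]

open scoped Classical in
/-- The orbit of a subgroup, as a finite set. -/
noncomputable def orb (N : Subgroup G) (u : Ω) : Finset Ω :=
  Finset.univ.filter fun v => ∃ n ∈ N, n • u = v

theorem mem_orb {N : Subgroup G} {u v : Ω} : v ∈ orb N u ↔ ∃ n ∈ N, n • u = v := by
  simp [orb]

theorem orb_eq {N : Subgroup G} {u v : Ω} (h : v ∈ orb N u) : orb N v = orb N u := by
  obtain ⟨n, hn, rfl⟩ := mem_orb.1 h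
  ext w
  rw [mem_orb, mem_orb]
  constructor
  · rintro ⟨m, hm, rfl⟩
    exact ⟨m * n, N.mul_mem hm hn, mul_smul m n u⟩
  · rintro ⟨m, hm, rfl⟩
    exact ⟨m * n⁻¹, N.mul_mem hm (N.inv_mem hn), by rw [← mul_smul, inv_mul_cancel_right]⟩

/-- The orbits of a subgroup normalised by a transitive group have one size, dividing the degree. -/
theorem orb_card (X N : Subgroup G) (S : Finset Ω) (htr : ∀ u ∈ S, ∀ v ∈ S, ∃ x ∈ X, x • u = v)
    (hnorm : ∀ x ∈ X, ∀ n ∈ N, x * n * x⁻¹ ∈ N) (hsub : ∀ u ∈ S, orb N u ⊆ S) {u : Ω}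
    (hu : u ∈ S) : (∀ v ∈ S, (orb N v).card = (orb N u).card) ∧ (orb N u).card ∣ S.card := by
  classical
  have hmap : ∀ x : G, x ∈ X → ∀ w : Ω, (orb N w).image (x • ·) ⊆ orb N (x • w) := by
    intro x hx w z hz
    obtain ⟨y, hy, rfl⟩ := Finset.mem_image.1 hz
    obtain ⟨n, hn, rfl⟩ := mem_orb.1 hy
    exact mem_orb.2 ⟨x * n * x⁻¹, hnorm x hx n hn, by rw [mul_smul, mul_smul, inv_smul_smul]⟩
  have hle : ∀ v ∈ S, ∀ w ∈ S, (orb N v).card ≤ (orb N w).card := by
    intro v hv w hw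
    obtain ⟨x, hx, rfl⟩ := htr v hv w hw
    calc (orb N v).card = ((orb N v).image (x • ·)).card :=
          (Finset.card_image_of_injective _ (MulAction.injective x)).symm
      _ ≤ _ := Finset.card_le_card (hmap x hx v)
  have heq : ∀ v ∈ S, (orb N v).card = (orb N u).card := fun v hv =>
    le_antisymm (hle v hv u hu) (hle u hu v hv)
  exact ⟨heq, card_dvd_of_classes S (orb N) (fun w _ => mem_orb.2 ⟨1, N.one_mem, one_smul G w⟩)
    hsub (fun w _ v hv => orb_eq hv) heq⟩

/-- If a subgroup has an orbit of size divisible by `p`, some `p`-element moves the point. -/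
theorem exists_pElement_moves [Finite G] {p : ℕ} [Fact p.Prime] (N : Subgroup G) (u : Ω)
    (h : p ∣ (orb N u).card) : ∃ g ∈ N, (∃ k : ℕ, g ^ p ^ k = 1) ∧ g • u ≠ u := by
  classical
  by_contra hc
  push Not at hc
  have hst : (orb N u).card = (MulAction.stabilizer ↥N u).index := by
    rw [MulAction.index_stabilizer, ← Set.ncard_coe_finset]
    congr 1
    ext v
    simp only [Finset.mem_coe, mem_orb, MulAction.mem_orbit_iff, Subtype.exists, Subgroup.mk_smul,
      exists_prop]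
  obtain ⟨P⟩ : Nonempty (Sylow p ↥N) := Sylow.nonempty
  have hle : (P : Subgroup ↥N) ≤ MulAction.stabilizer ↥N u := by
    intro x hx
    obtain ⟨k, hk⟩ := P.isPGroup' ⟨x, hx⟩
    have hk' : (x : G) ^ p ^ k = 1 := by
      have := congrArg (fun z : (P : Subgroup ↥N) => ((z : ↥N) : G)) hk
      simpa using this
    exact hc x x.2 ⟨k, hk'⟩
  exact P.not_dvd_index (h.trans (hst ▸ Subgroup.index_dvd_of_le hle))

end Orbits

namespace Data

variable {G Ω : Type*} [Group G] [Finite G] [MulAction G Ω] [Fintype Ω] [DecidableEq Ω] {p : ℕ}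
  (d : Data G Ω p)
include d

theorem ne_of_mem {a b c : Ω} (hab : a ≠ b) (hc : c ∈ d.B a b) : c ≠ a := fun h =>
  d.not_mem a b hab (h ▸ hc)

theorem mem_comm {a b c : Ω} (hab : a ≠ b) (hc : c ∈ d.B a b) : b ∈ d.B a c := by
  rw [d.eq_of_mem a b c hab hc]; exact d.mem_self a b hab

theorem eq_comm' {a b c : Ω} (hab : a ≠ b) (hac : a ≠ c) (h : b ∈ d.B a c) : c ∈ d.B a b := by
  rw [d.eq_of_mem a c b hac h]; exact d.mem_self a c hac

theorem smul_mem_stab {g : G} {a : Ω} (hg : g • a = a) (b c : Ω) :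
    g • c ∈ d.B a (g • b) ↔ c ∈ d.B a b := by
  have h := d.smul_mem g a b c
  rwa [hg] at h

theorem smul_ne {g : G} {a u : Ω} (hg : g • a = a) (hu : u ≠ a) : g • u ≠ a := fun h =>
  hu (MulAction.injective g (h.trans hg.symm))

theorem card_univ_eq : (Finset.univ : Finset Ω).card = p ^ 2 + 1 := by
  rw [Finset.card_univ, ← Nat.card_eq_fintype_card, d.card]

theorem card_erase (a : Ω) : (Finset.univ.erase a).card = p ^ 2 := by
  rw [Finset.card_erase_of_mem (Finset.mem_univ a), d.card_univ_eq]; omega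

theorem exists_ne (a : Ω) : ∃ b, b ≠ a := by
  have h : 0 < (Finset.univ.erase a).card := by
    rw [d.card_erase]; exact pow_pos d.prime.pos 2
  obtain ⟨b, hb⟩ := Finset.card_pos.1 h
  exact ⟨b, Finset.ne_of_mem_erase hb⟩

theorem stab_trans {a u v : Ω} (hu : u ≠ a) (hv : v ≠ a) : ∃ g : G, g • a = a ∧ g • u = v :=
  d.two a u a v hu.symm hv.symm

/-- The kernel of the stabiliser of `a` on the blocks. -/
def kern (a : Ω) : Subgroup G where
  carrier := {g | g • a = a ∧ ∀ u, u ≠ a → g • u ∈ d.B a u}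
  one_mem' := ⟨one_smul G a, fun u hu => by rw [one_smul]; exact d.mem_self a u hu.symm⟩
  mul_mem' := fun {g h} hg hh => ⟨by rw [mul_smul, hh.1, hg.1], fun u hu => by
    rw [mul_smul, ← d.eq_of_mem a u (h • u) hu.symm (hh.2 u hu)]
    exact hg.2 _ (d.smul_ne hh.1 hu)⟩
  inv_mem' := fun {g} hg => by
    have ha : g⁻¹ • a = a := by rw [inv_smul_eq_iff, hg.1]
    refine ⟨ha, fun u hu => ?_⟩
    have h1 := hg.2 _ (d.smul_ne ha hu)
    rw [smul_inv_smul] at h1
    exact d.eq_comm' hu.symm (d.smul_ne ha hu).symm h1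

theorem mem_kern {a : Ω} {g : G} :
    g ∈ d.kern a ↔ g • a = a ∧ ∀ u, u ≠ a → g • u ∈ d.B a u := Iff.rfl

theorem conj_kern {a a' : Ω} {g k : G} (hga : g • a = a') (hk : k ∈ d.kern a) :
    g * k * g⁻¹ ∈ d.kern a' := by
  subst hga
  refine ⟨by rw [mul_smul, mul_smul, inv_smul_smul, hk.1], fun u hu => ?_⟩
  have h1 : g⁻¹ • u ≠ a := fun h => hu (inv_smul_eq_iff.1 h)
  have h2 := (d.smul_mem g a (g⁻¹ • u) (k • g⁻¹ • u)).2 (hk.2 _ h1)
  rwa [smul_inv_smul, ← mul_smul, ← mul_smul] at h2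

/-- The elements of the kernel fixing a block pointwise. -/
def pw (a b : Ω) : Subgroup G where
  carrier := {g | g ∈ d.kern a ∧ ∀ c ∈ d.B a b, g • c = c}
  one_mem' := ⟨one_mem _, fun c _ => one_smul G c⟩
  mul_mem' := fun {g h} hg hh => ⟨mul_mem hg.1 hh.1, fun c hc => by
    rw [mul_smul, hh.2 c hc, hg.2 c hc]⟩
  inv_mem' := fun {g} hg => ⟨inv_mem hg.1, fun c hc => by rw [inv_smul_eq_iff, hg.2 c hc]⟩

theorem mem_pw {a b : Ω} {g : G} : g ∈ d.pw a b ↔ g ∈ d.kern a ∧ ∀ c ∈ d.B a b, g • c = c :=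
  Iff.rfl

theorem conj_pw {a b : Ω} {g k : G} (hga : g • a = a) (hk : k ∈ d.pw a b) :
    g * k * g⁻¹ ∈ d.pw a (g • b) := by
  refine ⟨d.conj_kern hga hk.1, fun c hc => ?_⟩
  have h1 : g⁻¹ • c ∈ d.B a b := by
    rw [← d.smul_mem_stab hga, smul_inv_smul]; exact hc
  rw [mul_smul, mul_smul, hk.2 _ h1, smul_inv_smul]

/-- An invariant equivalence joining two blocks of `a` is total. -/
theorem rel_total (a : Ω) (r : Ω → Ω → Prop) (hrefl : ∀ u, r u u)
    (hsymm : ∀ u v, r u v → r v u) (htrans : ∀ u v w, r u v → r v w → r u w)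
    (hinv : ∀ g : G, g • a = a → ∀ u v, u ≠ a → v ≠ a → r u v → r (g • u) (g • v))
    (hB : ∀ u, u ≠ a → ∀ v ∈ d.B a u, r u v) {u₀ v₀ : Ω} (hu₀ : u₀ ≠ a) (hv₀ : v₀ ≠ a)
    (h : r u₀ v₀) (hout : v₀ ∉ d.B a u₀) : ∀ u v, u ≠ a → v ≠ a → r u v := by
  classical
  haveI : Fact p.Prime := ⟨d.prime⟩
  set S := Finset.univ.erase a with hS
  let C : Ω → Finset Ω := fun u => S.filter (r u)
  have hle : ∀ u ∈ S, ∀ v ∈ S, (C u).card ≤ (C v).card := by
    intro u hu v hv
    obtain ⟨g, hga, rfl⟩ := d.stab_trans (Finset.ne_of_mem_erase hu) (Finset.ne_of_mem_erase hv)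
    rw [← Finset.card_image_of_injective (C u) (MulAction.injective g)]
    refine Finset.card_le_card fun z hz => ?_
    obtain ⟨w, hw, rfl⟩ := Finset.mem_image.1 hz
    obtain ⟨hw, hr⟩ := Finset.mem_filter.1 hw
    exact Finset.mem_filter.2
      ⟨Finset.mem_erase.2 ⟨d.smul_ne hga (Finset.ne_of_mem_erase hw), Finset.mem_univ _⟩,
        hinv g hga u w (Finset.ne_of_mem_erase hu) (Finset.ne_of_mem_erase hw) hr⟩
  have hu₀S : u₀ ∈ S := Finset.mem_erase.2 ⟨hu₀, Finset.mem_univ _⟩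
  have hs : ∀ u ∈ S, (C u).card = (C u₀).card := fun u hu =>
    le_antisymm (hle u hu u₀ hu₀S) (hle u₀ hu₀S u hu)
  have hdvd : (C u₀).card ∣ p ^ 2 := by
    rw [← d.card_erase a]
    refine card_dvd_of_classes S C (fun u hu => Finset.mem_filter.2 ⟨hu, hrefl u⟩)
      (fun u _ => Finset.filter_subset _ _) (fun u hu v hv => ?_) hs
    have hruv := (Finset.mem_filter.1 hv).2
    exact Finset.filter_congr fun w _ => ⟨htrans u v w hruv, htrans v u w (hsymm u v hruv)⟩
  have hgt : p < (C u₀).card := by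
    have hsub : insert v₀ (d.B a u₀) ⊆ C u₀ := by
      intro z hz
      rcases Finset.mem_insert.1 hz with rfl | hz
      · exact Finset.mem_filter.2 ⟨Finset.mem_erase.2 ⟨hv₀, Finset.mem_univ _⟩, h⟩
      · exact Finset.mem_filter.2 ⟨Finset.mem_erase.2 ⟨d.ne_of_mem hu₀.symm hz, Finset.mem_univ _⟩,
          hB u₀ hu₀ z hz⟩
    have := Finset.card_le_card hsub
    rw [Finset.card_insert_of_notMem hout, d.card_B a u₀ hu₀.symm] at this
    omega
  obtain ⟨i, hi, hie⟩ := (Nat.dvd_prime_pow d.prime).1 hdvd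
  have hi2 : i = 2 := by
    interval_cases i
    · simp only [pow_zero] at hie; have := d.prime.pos; omega
    · simp only [pow_one] at hie; omega
    · rfl
  subst hi2
  intro u v hu hv
  have huS : u ∈ S := Finset.mem_erase.2 ⟨hu, Finset.mem_univ _⟩
  have hvS : v ∈ S := Finset.mem_erase.2 ⟨hv, Finset.mem_univ _⟩
  have : C u = S := Finset.eq_of_subset_of_card_le (Finset.filter_subset _ _)
    (by rw [hs u huS, hie, d.card_erase a])
  rw [← this] at hvS
  exact (Finset.mem_filter.1 hvS).2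

theorem kern_orb_subset {a b : Ω} {N : Subgroup G} (hN : N ≤ d.kern a) (hab : a ≠ b) :
    ∀ u ∈ d.B a b, orb N u ⊆ d.B a b := by
  intro u hu v hv
  obtain ⟨n, hn, rfl⟩ := mem_orb.1 hv
  rw [← d.eq_of_mem a b u hab hu]
  exact (hN hn).2 u (d.ne_of_mem hab hu)

theorem kern_transitive {a : Ω} (hne : d.kern a ≠ ⊥) {b : Ω} (hab : a ≠ b) :
    orb (d.kern a) b = d.B a b := by
  classical
  haveI : Fact p.Prime := ⟨d.prime⟩
  have hsub : ∀ u ∈ Finset.univ.erase a, orb (d.kern a) u ⊆ Finset.univ.erase a := by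
    intro u hu v hv
    have := d.kern_orb_subset le_rfl (Finset.ne_of_mem_erase hu).symm u
      (d.mem_self a u (Finset.ne_of_mem_erase hu).symm) hv
    exact Finset.mem_erase.2 ⟨d.ne_of_mem (Finset.ne_of_mem_erase hu).symm this, Finset.mem_univ _⟩
  obtain ⟨heq, hdvd⟩ := orb_card (MulAction.stabilizer G a) (d.kern a) (Finset.univ.erase a)
    (fun u hu v hv => by
      obtain ⟨g, hga, hgu⟩ := d.stab_trans (Finset.ne_of_mem_erase hu) (Finset.ne_of_mem_erase hv)
      exact ⟨g, hga, hgu⟩)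
    (fun x hx n hn => d.conj_kern hx hn) hsub
    (Finset.mem_erase.2 ⟨hab.symm, Finset.mem_univ _⟩)
  rw [d.card_erase a] at hdvd
  have hsubB := d.kern_orb_subset le_rfl hab b (d.mem_self a b hab)
  refine Finset.eq_of_subset_of_card_le hsubB ?_
  rw [d.card_B a b hab]
  by_contra hlt
  obtain ⟨i, hi, hie⟩ := (Nat.dvd_prime_pow d.prime).1 hdvd
  have hi0 : i = 0 := by
    by_contra hi0
    exact hlt (hie ▸ Nat.le_self_pow hi0 p)
  subst hi0
  refine hne ((Subgroup.eq_bot_iff_forall _).2 fun k hk => d.faithful k fun x => ?_)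
  by_cases hx : x = a
  · rw [hx]; exact hk.1
  · have h1 := heq x (Finset.mem_erase.2 ⟨hx, Finset.mem_univ _⟩)
    rw [hie, pow_zero, Finset.card_eq_one] at h1
    obtain ⟨y, hy⟩ := h1
    have e1 : x ∈ orb (d.kern a) x := mem_orb.2 ⟨1, one_mem _, one_smul G x⟩
    have e2 : k • x ∈ orb (d.kern a) x := mem_orb.2 ⟨k, hk, rfl⟩
    rw [hy, Finset.mem_singleton] at e1 e2
    rw [e2, ← e1]

theorem fix_block_of_pElement {b v : Ω} (hbv : b ≠ v) {x : G} {k : ℕ} (hx : x ^ p ^ k = 1)
    (hxb : x • b = b) (hxv : x • v = v) : ∀ w ∈ d.B b v, x • w = w := by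
  classical
  haveI : Fact p.Prime := ⟨d.prime⟩
  have hpres : ∀ w, (MulAction.toPerm x : Equiv.Perm Ω) w ∈ d.B b v ↔ w ∈ d.B b v := fun w => by
    rw [MulAction.toPerm_apply]
    conv_lhs => rw [← hxv]
    exact d.smul_mem_stab hxb v w
  set σ := (MulAction.toPerm x : Equiv.Perm Ω).subtypePerm hpres with hσdef
  have hσ : σ ^ p ^ k = 1 := by
    refine Equiv.ext fun w => Subtype.ext ?_
    rw [hσdef, Equiv.Perm.subtypePerm_pow]
    show ((MulAction.toPerm x : Equiv.Perm Ω) ^ p ^ k) w = w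
    rw [show (MulAction.toPerm x : Equiv.Perm Ω) = MulAction.toPermHom G Ω x from rfl, ← map_pow,
      hx, map_one]
    rfl
  have h := Equiv.Perm.card_compl_support_modEq hσ
  rw [Fintype.card_coe, d.card_B b v hbv] at h
  have hfix : σ ⟨v, d.mem_self b v hbv⟩ = ⟨v, d.mem_self b v hbv⟩ := Subtype.ext hxv
  have hpos : 0 < σ.supportᶜ.card := Finset.card_pos.2
    ⟨⟨v, d.mem_self b v hbv⟩, by simpa [Finset.mem_compl] using hfix⟩
  have hle : σ.supportᶜ.card ≤ p := by
    refine le_trans (Finset.card_le_univ _) ?_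
    rw [Fintype.card_coe, d.card_B b v hbv]
  have hfull : σ.supportᶜ.card = p := by
    have h0 : σ.supportᶜ.card % p = 0 := by rw [h]; simp
    rcases eq_or_lt_of_le hle with h' | h'
    · exact h'
    · rw [Nat.mod_eq_of_lt h'] at h0; omega
  have hall : σ.supportᶜ = Finset.univ := Finset.eq_univ_of_card _
    (by rw [hfull, Fintype.card_coe, d.card_B b v hbv])
  intro w hw
  have : (⟨w, hw⟩ : {w // w ∈ d.B b v}) ∈ σ.supportᶜ := hall ▸ Finset.mem_univ _
  rw [Finset.mem_compl, Equiv.Perm.notMem_support] at this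
  exact congrArg Subtype.val this

/-- Double counting of a system of sets of `p + 1` points. -/
theorem line_count (𝓛 : Finset (Finset Ω)) (hcard : ∀ L ∈ 𝓛, L.card = p + 1) (c : ℕ)
    (hc : ∀ x y : Ω, x ≠ y → (𝓛.filter fun L => x ∈ L ∧ y ∈ L).card = c) :
    p + 1 ∣ 2 * c := by
  classical
  have h1 : ∑ L ∈ 𝓛, L.offDiag.card = ∑ q ∈ (Finset.univ : Finset Ω).offDiag,
      (𝓛.filter fun L => q.1 ∈ L ∧ q.2 ∈ L).card := by
    have hL : ∀ L : Finset Ω, L.offDiag =
        (Finset.univ : Finset Ω).offDiag.filter fun q => q.1 ∈ L ∧ q.2 ∈ L := by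
      intro L; ext q; simp only [Finset.mem_offDiag, Finset.mem_filter, Finset.mem_univ, true_and]
      tauto
    rw [Finset.sum_congr rfl fun L _ => congrArg Finset.card (hL L)]
    simp only [Finset.card_filter]
    exact Finset.sum_comm
  rw [Finset.sum_congr rfl (fun q hq => hc q.1 q.2 (Finset.mem_offDiag.1 hq).2.2),
    Finset.sum_congr rfl (fun L hL => show L.offDiag.card = (p + 1) * p by
      rw [Finset.offDiag_card, hcard L hL, Nat.mul_succ, Nat.add_sub_cancel]),
    Finset.sum_const, Finset.sum_const, Finset.offDiag_card, d.card_univ_eq, smul_eq_mul,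
    smul_eq_mul, Nat.mul_succ, Nat.add_sub_cancel] at h1
  have h2 : (p + 1) ∣ (p ^ 2 + 1) * p ^ 2 * c := ⟨𝓛.card * p, by rw [← h1]; ring⟩
  have hcop : Nat.Coprime (p + 1) (p ^ 2) := by
    apply Nat.Coprime.pow_right
    rw [Nat.coprime_self_add_left]
    exact Nat.coprime_one_left p
  have h3 : p + 1 ∣ (p ^ 2 + 1) * c := by
    refine hcop.dvd_of_dvd_mul_right ?_
    convert h2 using 1
    ring
  have h4 : p + 1 ∣ (p + 1) * (p - 1) * c := Dvd.dvd.mul_right (dvd_mul_right _ _) c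
  have e : (p ^ 2 + 1) * c = (p + 1) * (p - 1) * c + 2 * c := by
    obtain ⟨m, rfl⟩ : ∃ m, p = m + 1 := ⟨p - 1, by have := d.prime.pos; omega⟩
    simp only [Nat.add_sub_cancel]; ring
  rw [e] at h3
  exact (Nat.dvd_add_right h4).1 h3

/-- The lines `{a} ∪ B a b` are not symmetric. -/
theorem no_symm {a b : Ω} (hab : a ≠ b)
    (h : insert a (d.B a b) = insert b (d.B b a)) : False := by
  classical
  have hsym : ∀ x y : Ω, x ≠ y → insert x (d.B x y) = insert y (d.B y x) := by
    intro x y hxy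
    obtain ⟨g, rfl, rfl⟩ := d.two a b x y hab hxy
    ext z
    have e : ∀ u v, z ∈ insert (g • u) (d.B (g • u) (g • v)) ↔ g⁻¹ • z ∈ insert u (d.B u v) := by
      intro u v
      rw [Finset.mem_insert, Finset.mem_insert, inv_smul_eq_iff]
      conv_lhs => rw [← smul_inv_smul g z, d.smul_mem, smul_inv_smul]
    rw [e, e, h]
  let L : Ω → Ω → Finset Ω := fun x y => insert x (d.B x y)
  have hL : ∀ x y, x ≠ y → ∀ z w, z ∈ L x y → w ∈ L x y → z ≠ w → L z w = L x y := by
    intro x y hxy z w hz hw hzw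
    have step : ∀ u, u ∈ L x y → u ≠ x → L u x = L x y := by
      intro u hu hux
      show insert u (d.B u x) = _
      rw [hsym u x hux, d.eq_of_mem x y u hxy ((Finset.mem_insert.1 hu).resolve_left hux)]
    by_cases hzx : z = x
    · subst hzx
      show insert z (d.B z w) = _
      rw [d.eq_of_mem z y w hxy ((Finset.mem_insert.1 hw).resolve_left hzw.symm)]
    · have e1 := step z hz hzx
      have hw' : w ∈ L z x := e1 ▸ hw
      show insert z (d.B z w) = _
      rw [d.eq_of_mem z x w hzx ((Finset.mem_insert.1 hw').resolve_left hzw.symm)]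
      exact e1
  let 𝓛 := (Finset.univ : Finset Ω).offDiag.image fun q => L q.1 q.2
  have hdvd := d.line_count 𝓛 (fun X hX => by
    obtain ⟨⟨x, y⟩, hq, rfl⟩ := Finset.mem_image.1 hX
    have hxy := (Finset.mem_offDiag.1 hq).2.2
    show (insert x (d.B x y)).card = _
    rw [Finset.card_insert_of_notMem (d.not_mem x y hxy), d.card_B x y hxy]) 1 (fun x y hxy => by
    rw [Finset.card_eq_one]
    refine ⟨L x y, ?_⟩
    ext X
    simp only [Finset.mem_filter, Finset.mem_singleton]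
    constructor
    · rintro ⟨hX, hx, hy⟩
      obtain ⟨⟨u, v⟩, hq, rfl⟩ := Finset.mem_image.1 hX
      exact (hL u v (Finset.mem_offDiag.1 hq).2.2 x y hx hy hxy).symm
    · rintro rfl
      exact ⟨Finset.mem_image.2
          ⟨(x, y), Finset.mem_offDiag.2 ⟨Finset.mem_univ _, Finset.mem_univ _, hxy⟩, rfl⟩,
        Finset.mem_insert_self _ _, Finset.mem_insert_of_mem (d.mem_self x y hxy)⟩)
  have := Nat.le_of_dvd (by norm_num) hdvd
  have := d.two_lt
  omega

/-- The kernel on the blocks is faithful on every block. -/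
theorem kern_faithful {a b : Ω} (hab : a ≠ b) {g : G} (hg : g ∈ d.kern a)
    (hfix : ∀ c ∈ d.B a b, g • c = c) : g = 1 := by
  classical
  haveI : Fact p.Prime := ⟨d.prime⟩
  by_contra hg1
  have hgpw : g ∈ d.pw a b := ⟨hg, hfix⟩
  have hKne : d.kern a ≠ ⊥ := fun h => hg1 (Subgroup.mem_bot.1 (h ▸ hg))
  have hcard : ∀ u v, u ≠ a → v ≠ a → Nat.card (d.pw a u) ≤ Nat.card (d.pw a v) := by
    intro u v hu hv
    obtain ⟨x, hxa, rfl⟩ := d.stab_trans hu hv
    refine Nat.card_le_card_of_injective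
      (fun k : d.pw a u => (⟨x * k * x⁻¹, d.conj_pw hxa k.2⟩ : d.pw a (x • u))) ?_
    intro k k' h
    simpa using congrArg Subtype.val h
  have hdisc : ∀ c, c ≠ a → d.pw a b ≤ d.pw a c → c ∈ d.B a b := by
    intro c hc hle
    by_contra hcb
    have heq : d.pw a b = d.pw a c :=
      Subgroup.eq_of_le_of_card_ge hle (hcard c b hc hab.symm)
    have hconj : ∀ x : G, x • a = a → ∀ u v, u ≠ a → v ≠ a → d.pw a u = d.pw a v →
        d.pw a (x • u) = d.pw a (x • v) := by
      intro x hxa u v hu hv h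
      have key : ∀ u v, d.pw a u = d.pw a v → d.pw a (x • u) ≤ d.pw a (x • v) := by
        intro u v h k hk
        have hx' : x⁻¹ • a = a := by rw [inv_smul_eq_iff, hxa]
        have h1 := d.conj_pw hx' hk
        rw [inv_smul_smul, h] at h1
        have h2 := d.conj_pw hxa h1
        rwa [show x * (x⁻¹ * k * x⁻¹⁻¹) * x⁻¹ = k by group] at h2
      exact le_antisymm (key u v h) (key v u h.symm)
    have htot := d.rel_total a (fun u v => d.pw a u = d.pw a v) (fun _ => rfl)
      (fun _ _ => Eq.symm) (fun _ _ _ => Eq.trans) hconj (fun u hu v hv => by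
        refine SetLike.ext fun k => ?_
        rw [d.mem_pw, d.mem_pw, d.eq_of_mem a u v hu.symm hv]) hab.symm hc heq hcb
    refine hg1 (d.faithful g fun x => ?_)
    by_cases hx : x = a
    · rw [hx]; exact hg.1
    · have : g ∈ d.pw a x := htot b x hab.symm hx ▸ hgpw
      exact this.2 x (d.mem_self a x (Ne.symm hx))
  -- a `p`-element of the pointwise stabiliser moving a given point outside the block
  have hmove : ∀ c, c ≠ a → c ∉ d.B a b →
      ∃ x ∈ d.pw a b, (∃ k : ℕ, x ^ p ^ k = 1) ∧ x • c ≠ c := by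
    intro c hc hcb
    obtain ⟨k, hk, hk'⟩ : ∃ k ∈ d.pw a b, k ∉ d.pw a c := by
      by_contra h
      push Not at h
      exact hcb (hdisc c hc h)
    obtain ⟨w, hw, hkw⟩ : ∃ w ∈ d.B a c, k • w ≠ w := by
      by_contra h
      push Not at h
      exact hk' ⟨hk.1, h⟩
    have hnorm : ∀ x ∈ d.kern a, ∀ n ∈ d.pw a b, x * n * x⁻¹ ∈ d.pw a b := by
      intro x hx n hn
      have h1 := d.conj_pw hx.1 hn
      refine ⟨h1.1, fun z hz => h1.2 z ?_⟩
      rwa [d.eq_of_mem a b _ hab (hx.2 b hab.symm)]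
    have hsub := d.kern_orb_subset (N := d.pw a b) (fun x hx => hx.1) hc.symm
    obtain ⟨heq, hdvd⟩ := orb_card (d.kern a) (d.pw a b) (d.B a c) (fun u hu v hv => by
        have : v ∈ orb (d.kern a) u := by
          rw [d.kern_transitive hKne (d.ne_of_mem hc.symm hu).symm, d.eq_of_mem a c u hc.symm hu]
          exact hv
        exact mem_orb.1 this)
      hnorm hsub (u := w) hw
    rw [d.card_B a c hc.symm] at hdvd
    have hp : (orb (d.pw a b) w).card = p := by
      rcases (Nat.dvd_prime d.prime).1 hdvd with h | h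
      · exfalso
        obtain ⟨y, hy⟩ := Finset.card_eq_one.1 h
        have e1 : w ∈ orb (d.pw a b) w := mem_orb.2 ⟨1, one_mem _, one_smul G w⟩
        have e2 : k • w ∈ orb (d.pw a b) w := mem_orb.2 ⟨k, hk, rfl⟩
        rw [hy, Finset.mem_singleton] at e1 e2
        exact hkw (e2.trans e1.symm)
      · exact h
    exact exists_pElement_moves (d.pw a b) c
      (by rw [heq c (d.mem_self a c hc.symm), hp])
  set F := (Finset.univ : Finset Ω).filter
    fun v => ∀ x ∈ d.pw a b, ∀ k : ℕ, x ^ p ^ k = 1 → x • v = v with hF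
  have hFeq : F = insert a (d.B a b) := by
    ext v
    simp only [hF, Finset.mem_filter, Finset.mem_univ, true_and, Finset.mem_insert]
    constructor
    · intro hv
      by_contra hvn
      rw [not_or] at hvn
      obtain ⟨x, hx, ⟨k, hk⟩, hxv⟩ := hmove v hvn.1 hvn.2
      exact hxv (hv x hx k hk)
    · rintro (rfl | hv) x hx k -
      · exact hx.1.1
      · exact hx.2 v hv
  have hsub : insert b (d.B b a) ⊆ F := by
    intro v hv
    simp only [hF, Finset.mem_filter, Finset.mem_univ, true_and]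
    intro x hx k hk
    rcases Finset.mem_insert.1 hv with rfl | hv
    · exact hx.2 _ (d.mem_self a _ hab)
    · exact d.fix_block_of_pElement hab.symm hk (hx.2 b (d.mem_self a b hab)) hx.1.1 v hv
  refine d.no_symm hab (Eq.symm ?_)
  rw [hFeq] at hsub
  refine Finset.eq_of_subset_of_card_le hsub ?_
  rw [Finset.card_insert_of_notMem (d.not_mem a b hab), d.card_B a b hab,
    Finset.card_insert_of_notMem (d.not_mem b a hab.symm), d.card_B b a hab.symm]

end Data

end Cfsg.Agent.H37.Tsuzuku
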