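import Cfsg.Agent.H37.Tsuzuku.Data

/-!
# Doubly transitive groups of degree `p² + 1`: orders, and a regular abelian subgroup of order `p²`
-/

set_option autoImplicit false

namespace Cfsg.Agent.H37.Tsuzuku

open Finset MulAction

/-- A regular abelian subgroup of order `p²` of the stabiliser of `a`. -/
structure RegSub {G Ω : Type*} [Group G] [MulAction G Ω] (p : ℕ) (a : Ω) (P : Subgroup G) :
    Prop where
  le : P ≤ stabilizer G a
  card : Nat.card P = p ^ 2
  semi : ∀ x ∈ P, ∀ u, u ≠ a → x • u = u → x = 1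
  trans : ∀ u v, u ≠ a → v ≠ a → ∃ x ∈ P, x • u = v
  comm : ∀ x ∈ P, ∀ y ∈ P, x * y = y * x

namespace Data

variable {G Ω : Type*} [Group G] [Finite G] [MulAction G Ω] [Fintype Ω] [DecidableEq Ω] {p : ℕ}
  (d : Data G Ω p)
include d

theorem kern_le_stab (a : Ω) : d.kern a ≤ stabilizer G a := fun _ hg => hg.1

theorem kern_conj_mem {a : Ω} {g k : G} (hga : g • a = a) (hk : k ∈ d.kern a) :
    g * k * g⁻¹ ∈ d.kern a := d.conj_kern hga hk

theorem kern_conj_mem' {a : Ω} {g k : G} (hga : g • a = a) (hk : k ∈ d.kern a) :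
    g⁻¹ * k * g ∈ d.kern a := by
  have h := d.conj_kern (g := g⁻¹) (a' := a) (by rw [inv_smul_eq_iff, hga]) hk
  rwa [inv_inv] at h

theorem kern_card_eq (a a' : Ω) : Nat.card (d.kern a) = Nat.card (d.kern a') := by
  have key : ∀ x y : Ω, Nat.card (d.kern x) ≤ Nat.card (d.kern y) := by
    intro x y
    obtain ⟨g, hg⟩ : ∃ g : G, g • x = y := by
      obtain ⟨x', hx'⟩ := d.exists_ne x
      obtain ⟨y', hy'⟩ := d.exists_ne y
      obtain ⟨g, hg, -⟩ := d.two x x' y y' hx'.symm hy'.symm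
      exact ⟨g, hg⟩
    refine Nat.card_le_card_of_injective
      (fun k : d.kern x => (⟨g * k * g⁻¹, d.conj_kern hg k.2⟩ : d.kern y)) ?_
    intro k k' h
    simpa using congrArg Subtype.val h
  exact le_antisymm (key a a') (key a' a)

theorem mem_block_smul {a u v : Ω} {g : G} (hga : g • a = a) (h : v ∈ d.B a u) :
    g • v ∈ d.B a (g • u) := (d.smul_mem_stab hga u v).2 h

theorem image_block {a : Ω} {g : G} (hga : g • a = a) (u : Ω) :
    (d.B a u).image (g • ·) = d.B a (g • u) := by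
  ext v
  rw [Finset.mem_image]
  refine ⟨fun ⟨w, hw, e⟩ => e ▸ d.mem_block_smul hga hw, fun hv => ⟨g⁻¹ • v, ?_, smul_inv_smul g v⟩⟩
  rw [← d.smul_mem_stab hga, smul_inv_smul]
  exact hv

theorem exists_kern_smul {a b : Ω} (hne : d.kern a ≠ ⊥) (hab : a ≠ b) {c : Ω}
    (hc : c ∈ d.B a b) : ∃ k ∈ d.kern a, k • b = c :=
  mem_orb.1 (by rw [d.kern_transitive hne hab]; exact hc)

theorem card_kern_dvd {a b : Ω} (hab : a ≠ b) : Nat.card (d.kern a) ∣ p.factorial := by
  classical
  letI : MulAction ↥(d.kern a) ↥(d.B a b) :=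
    { smul := fun g c => ⟨(g : G) • (c : Ω), by
        have h := g.2.2 c (d.ne_of_mem hab c.2)
        rwa [d.eq_of_mem a b c hab c.2] at h⟩
      one_smul := fun c => Subtype.ext (one_smul G (c : Ω))
      mul_smul := fun g h c => Subtype.ext (mul_smul (g : G) (h : G) (c : Ω)) }
  have hinj : Function.Injective (toPermHom ↥(d.kern a) ↥(d.B a b)) :=
    (injective_iff_map_eq_one _).2 fun g hg => Subtype.ext <| d.kern_faithful hab g.2 fun c hc => by
      have h := congrArg (fun σ : Equiv.Perm ↥(d.B a b) => ((σ ⟨c, hc⟩ : ↥(d.B a b)) : Ω)) hg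
      exact h
  have h := Subgroup.card_dvd_of_injective _ hinj
  rwa [Nat.card_perm, Nat.card_eq_finsetCard, d.card_B a b hab] at h

/-- The blocks of the stabiliser of `a`. -/
def blocks (a : Ω) : Finset (Finset Ω) := (Finset.univ.erase a).image (d.B a)

theorem mem_blocks {a : Ω} {X : Finset Ω} : X ∈ d.blocks a ↔ ∃ u, u ≠ a ∧ d.B a u = X := by
  simp [blocks]

theorem card_blocks (a : Ω) : (d.blocks a).card = p := by
  classical
  have h := Finset.card_eq_sum_card_image (d.B a) (Finset.univ.erase a)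
  have hfib : ∀ X ∈ d.blocks a, ((Finset.univ.erase a).filter fun v => d.B a v = X).card = p := by
    intro X hX
    obtain ⟨u, hu, rfl⟩ := d.mem_blocks.1 hX
    rw [show ((Finset.univ.erase a).filter fun v => d.B a v = d.B a u) = d.B a u from
      Finset.ext fun v => by
        simp only [Finset.mem_filter, Finset.mem_erase, Finset.mem_univ, and_true]
        exact ⟨fun hv => hv.2 ▸ d.mem_self a v (Ne.symm hv.1),
          fun hv => ⟨d.ne_of_mem hu.symm hv, d.eq_of_mem a u v hu.symm hv⟩⟩, d.card_B a u hu.symm]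
  change (Finset.univ.erase a).card = ∑ X ∈ d.blocks a, _ at h
  rw [d.card_erase a, Finset.sum_congr rfl hfib, Finset.sum_const, smul_eq_mul, pow_two] at h
  exact (Nat.eq_of_mul_eq_mul_right d.prime.pos h).symm

theorem card_stab_dvd (a : Ω) :
    Nat.card (stabilizer G a) ∣ p.factorial * Nat.card (d.kern a) := by
  classical
  letI : MulAction ↥(stabilizer G a) ↥(d.blocks a) :=
    { smul := fun g X => ⟨(X : Finset Ω).image ((g : G) • ·), by
        obtain ⟨u, hu, e⟩ := d.mem_blocks.1 X.2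
        rw [← e, d.image_block g.2]
        exact d.mem_blocks.2 ⟨_, d.smul_ne g.2 hu, rfl⟩⟩
      one_smul := fun X => Subtype.ext (by
        show (X : Finset Ω).image (((1 : ↥(stabilizer G a)) : G) • ·) = _
        simp)
      mul_smul := fun g h X => Subtype.ext (by
        show (X : Finset Ω).image (((g * h : ↥(stabilizer G a)) : G) • ·) =
          ((X : Finset Ω).image ((h : G) • ·)).image ((g : G) • ·)
        rw [Finset.image_image]
        exact Finset.image_congr fun v _ => mul_smul (g : G) (h : G) v) }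
  set φ := toPermHom ↥(stabilizer G a) ↥(d.blocks a) with hφ
  have hker : ∀ g ∈ φ.ker, ((g : ↥(stabilizer G a)) : G) ∈ d.kern a := by
    intro g hg
    refine ⟨g.2, fun u hu => ?_⟩
    have h := congrArg (fun σ : Equiv.Perm ↥(d.blocks a) =>
      ((σ ⟨d.B a u, d.mem_blocks.2 ⟨u, hu, rfl⟩⟩ : ↥(d.blocks a)) : Finset Ω))
      (MonoidHom.mem_ker.1 hg)
    change (d.B a u).image ((g : G) • ·) = d.B a u at h
    rw [← h]
    exact Finset.mem_image_of_mem _ (d.mem_self a u hu.symm)
  have h1 : φ.ker.index ∣ p.factorial := by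
    rw [Subgroup.index_ker]
    have := Subgroup.card_subgroup_dvd_card φ.range
    rwa [Nat.card_perm, Nat.card_eq_finsetCard, d.card_blocks a] at this
  have h2 : Nat.card φ.ker ∣ Nat.card (d.kern a) := by
    let j : ↥φ.ker →* ↥(d.kern a) :=
      { toFun := fun g => ⟨((g : ↥(stabilizer G a)) : G), hker g g.2⟩
        map_one' := rfl
        map_mul' := fun _ _ => rfl }
    refine Subgroup.card_dvd_of_injective j fun g g' e => ?_
    have e' := congrArg Subtype.val e
    exact Subtype.ext (Subtype.ext e')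
  rw [← φ.ker.index_mul_card]
  exact mul_dvd_mul h1 h2

theorem card_stab {a b : Ω} (hab : a ≠ b) :
    Nat.card (stabilizer G a) = p ^ 2 * Nat.card ↥(stabilizer G a ⊓ stabilizer G b) := by
  classical
  have horb : Nat.card (orbit ↥(stabilizer G a) b) = p ^ 2 := by
    rw [← d.card_erase a, Nat.card_coe_set_eq, ← Set.ncard_coe_finset]
    congr 1
    ext v
    simp only [mem_orbit_iff, Subtype.exists, Subgroup.mk_smul, mem_stabilizer_iff, Finset.coe_erase,
      Finset.coe_univ, Set.mem_sdiff, Set.mem_univ, true_and, Set.mem_singleton_iff]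
    constructor
    · rintro ⟨g, hg, rfl⟩
      exact d.smul_ne hg hab.symm
    · intro hv
      obtain ⟨g, hga, hgb⟩ := d.stab_trans hab.symm hv
      exact ⟨g, hga, hgb⟩
  have h1 := (stabilizer ↥(stabilizer G a) b).index_mul_card
  rw [index_stabilizer, ← Nat.card_coe_set_eq, horb] at h1
  rw [← h1]
  congr 1
  exact Nat.card_congr
    { toFun := fun g => ⟨g.1.1, g.1.2, g.2⟩
      invFun := fun g => ⟨⟨g.1, g.2.1⟩, g.2.2⟩
      left_inv := fun _ => rfl
      right_inv := fun _ => rfl }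

theorem kern_ne_bot (a : Ω) : d.kern a ≠ ⊥ := by
  intro h
  obtain ⟨b, hb⟩ := d.exists_ne a
  have h1 := d.card_stab_dvd a
  rw [h, Subgroup.card_bot, mul_one, d.card_stab hb.symm] at h1
  have h2 : p * p ∣ p * (p - 1).factorial := by
    rw [Nat.mul_factorial_pred d.prime.ne_zero, ← pow_two]
    exact dvd_of_mul_right_dvd h1
  have h3 := Nat.dvd_of_mul_dvd_mul_left d.prime.pos h2
  have := (d.prime.dvd_factorial).1 h3
  have := d.prime.pos
  omega

theorem not_dvd_two_point {a b : Ω} (hab : a ≠ b) :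
    ¬ p ∣ Nat.card ↥(stabilizer G a ⊓ stabilizer G b) := by
  intro h
  have h1 : p * p * p ∣ p.factorial * p.factorial := by
    refine dvd_trans ?_ (mul_dvd_mul_left _ (d.card_kern_dvd hab))
    refine dvd_trans ?_ (d.card_stab_dvd a)
    rw [d.card_stab hab, pow_two]
    exact mul_dvd_mul_left _ h
  rw [← Nat.mul_factorial_pred d.prime.ne_zero, show p * (p - 1).factorial * (p * (p - 1).factorial)
    = p * p * ((p - 1).factorial * (p - 1).factorial) by ring] at h1
  have h2 := Nat.dvd_of_mul_dvd_mul_left (Nat.mul_pos d.prime.pos d.prime.pos) h1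
  have h3 := d.prime.pos
  rcases d.prime.dvd_mul.1 h2 with h4 | h4 <;>
    · have := (d.prime.dvd_factorial).1 h4
      omega

theorem exists_reg (a : Ω) : ∃ P : Subgroup G, RegSub p a P := by
  classical
  haveI : Fact p.Prime := ⟨d.prime⟩
  obtain ⟨b, hb⟩ := d.exists_ne a
  obtain ⟨P₀, hP₀⟩ := Sylow.exists_subgroup_card_pow_prime (G := ↥(stabilizer G a)) p
    (n := 2) (by rw [d.card_stab hb.symm]; exact dvd_mul_right _ _)
  have hcard : Nat.card ↥(P₀.map (stabilizer G a).subtype) = p ^ 2 := by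
    rw [Subgroup.card_map_of_injective (Subgroup.subtype_injective _), hP₀]
  set P := P₀.map (stabilizer G a).subtype with hPdef
  have hle : P ≤ stabilizer G a := Subgroup.map_subtype_le P₀
  have hsemi : ∀ x ∈ P, ∀ u, u ≠ a → x • u = u → x = 1 := by
    intro x hx u hu hxu
    have hxH : x ∈ stabilizer G a ⊓ stabilizer G u := ⟨hle hx, hxu⟩
    have h1 : orderOf x ∣ p ^ 2 := by
      rw [← hcard, ← Subgroup.orderOf_mk x hx]
      exact orderOf_dvd_natCard _
    have h2 : orderOf x ∣ Nat.card ↥(stabilizer G a ⊓ stabilizer G u) := by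
      rw [← Subgroup.orderOf_mk x hxH]
      exact orderOf_dvd_natCard _
    have h3 : Nat.Coprime (p ^ 2) (Nat.card ↥(stabilizer G a ⊓ stabilizer G u)) :=
      Nat.Coprime.pow_left 2 ((Nat.Prime.coprime_iff_not_dvd d.prime).2 (d.not_dvd_two_point hu.symm))
    exact orderOf_eq_one_iff.1 (Nat.eq_one_of_dvd_coprimes h3 h1 h2)
  refine ⟨P, hle, hcard, hsemi, fun u v hu hv => ?_, fun x hx y hy => ?_⟩
  · let f : ↥P → ↥(Finset.univ.erase a) := fun x =>
      ⟨(x : G) • u, Finset.mem_erase.2 ⟨d.smul_ne (hle x.2) hu, Finset.mem_univ _⟩⟩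
    have hf : Function.Bijective f := by
      rw [Nat.bijective_iff_injective_and_card]
      refine ⟨fun x y e => ?_, by rw [hcard, Nat.card_eq_finsetCard, d.card_erase a]⟩
      have e' : (x : G) • u = (y : G) • u := congrArg Subtype.val e
      have := hsemi ((y : G)⁻¹ * x) (mul_mem (inv_mem y.2) x.2) u hu
        (by rw [mul_smul, e', inv_smul_smul])
      exact Subtype.ext (inv_mul_eq_one.1 this).symm
    obtain ⟨x, hx⟩ := hf.2 ⟨v, Finset.mem_erase.2 ⟨hv, Finset.mem_univ _⟩⟩
    exact ⟨x, x.2, congrArg Subtype.val hx⟩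
  · exact congrArg Subtype.val
      (((IsPGroup.isMulCommutative_of_card_eq_prime_sq hcard).is_comm).comm (⟨x, hx⟩ : ↥P) ⟨y, hy⟩)

variable {a : Ω} {P : Subgroup G} (hP : RegSub p a P)
include hP

/-- An element of `P` fixing one block fixes all of them. -/
theorem reg_mem_kern {x : G} (hx : x ∈ P) {b : Ω} (hb : b ≠ a) (hxb : x • b ∈ d.B a b) :
    x ∈ d.kern a := by
  refine ⟨hP.le hx, fun u hu => ?_⟩
  obtain ⟨y, hy, rfl⟩ := hP.trans b u hb hu
  rw [← mul_smul, hP.comm x hx y hy, mul_smul]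
  exact d.mem_block_smul (hP.le hy) hxb

theorem reg_exists_smul {b c : Ω} (hb : b ≠ a) (hc : c ∈ d.B a b) :
    ∃ x ∈ P ⊓ d.kern a, x • b = c := by
  obtain ⟨x, hx, rfl⟩ := hP.trans b c hb (d.ne_of_mem hb.symm hc)
  exact ⟨x, ⟨hx, d.reg_mem_kern hP hx hb hc⟩, rfl⟩

theorem reg_card_inf : Nat.card ↥(P ⊓ d.kern a) = p := by
  classical
  obtain ⟨b, hb⟩ := d.exists_ne a
  let f : ↥(P ⊓ d.kern a) → ↥(d.B a b) := fun x => ⟨(x : G) • b, x.2.2.2 b hb⟩
  have hf : Function.Bijective f := by
    refine ⟨fun x y e => ?_, fun c => ?_⟩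
    · have e' : (x : G) • b = (y : G) • b := congrArg Subtype.val e
      have := hP.semi ((y : G)⁻¹ * x) (mul_mem (inv_mem y.2.1) x.2.1) b hb
        (by rw [mul_smul, e', inv_smul_smul])
      exact Subtype.ext (inv_mul_eq_one.1 this).symm
    · obtain ⟨x, hx, e⟩ := d.reg_exists_smul hP hb c.2
      exact ⟨⟨x, hx⟩, Subtype.ext e⟩
  rw [Nat.card_eq_of_bijective f hf, Nat.card_eq_finsetCard, d.card_B a b hb.symm]

/-- In the kernel the subgroup of order `p` is its own centraliser. -/
theorem reg_centralizer {k : G} (hk : k ∈ d.kern a) (hc : ∀ x ∈ P ⊓ d.kern a, k * x = x * k) :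
    k ∈ P := by
  obtain ⟨b, hb⟩ := d.exists_ne a
  obtain ⟨x, hx, hxb⟩ := d.reg_exists_smul hP hb (hk.2 b hb)
  have hkey : x⁻¹ * k = 1 := by
    refine d.kern_faithful hb.symm (mul_mem (inv_mem hx.2) hk) fun c hcB => ?_
    obtain ⟨z, hz, rfl⟩ := d.reg_exists_smul hP hb hcB
    rw [← mul_smul, mul_assoc, hc z hz, ← mul_assoc,
      show x⁻¹ * z = z * x⁻¹ from hP.comm _ (inv_mem hx.1) _ hz.1, mul_assoc, mul_smul, mul_smul,
      ← hxb, inv_smul_smul]
  rw [← inv_mul_eq_one.1 hkey]
  exact hx.1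

end Data

end Cfsg.Agent.H37.Tsuzuku
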