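import Cfsg.Agent.H37.Tsuzuku.Coordinates
import Cfsg.Agent.H37.Tsuzuku.Cyclotomic
import Cfsg.Agent.H36.PrimeDegree

/-!
# Doubly transitive groups of degree `p² + 1`: the large kernel forces `p = 3`
-/

set_option autoImplicit false

namespace Cfsg.Agent.H37.Tsuzuku

open Finset MulAction

set_option maxHeartbeats 600000

theorem zmod_three_cases : ∀ t : ZMod 3, t = 0 ∨ t = 1 ∨ t = 2 := by decide

/-- Numbers of paths with steps in `D`. -/
def paths {p : ℕ} (D : Finset (ZMod p)) : ℕ → ZMod p → ℕ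
  | 0, z => if z = 0 then 1 else 0
  | i + 1, z => ∑ t ∈ D, paths D i (z - t)

variable {G Ω : Type*} [Group G] [Finite G] [MulAction G Ω] [Fintype Ω] [DecidableEq Ω] {p : ℕ}
  [Fact p.Prime] {d : Data G Ω p} {a b : Ω} {q y e : G} {s : ZMod p}

namespace Coord

variable (C : Coord d a b q y e s)
include C

theorem pt_zero : pt y q b (0 : ZMod p) 0 = b := by
  rw [pt, zp_zero, zp_zero, one_mul, one_smul]

theorem pt_ne (i j : ZMod p) : pt y q b i j ≠ a := by
  refine d.smul_ne ?_ C.ne.symm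
  rw [mul_smul, (zp_mem C.q_mem j : zp q j ∈ d.kern a).1]
  exact zp_mem (H := stabilizer G a) (mem_stabilizer_iff.2 C.y_stab) i

theorem q_pt (i j l : ZMod p) : zp q l • pt y q b i j = pt y q b i (l + j) := by
  rw [pt, pt, ← mul_smul, ← mul_assoc, (commute_zp C.qy l i).eq, mul_assoc, ← zp_add C.q_pow]

theorem y_pt (i j l : ZMod p) : zp y l • pt y q b i j = pt y q b (l + i) j := by
  rw [pt, pt, ← mul_smul, ← mul_assoc, ← zp_add C.y_pow]

theorem e_pt (i j : ZMod p) : e • pt y q b i j = pt y q b i (s * j) := by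
  rw [pt, pt, ← mul_smul, ← mul_assoc, show e * zp y i = zp y i * e from (C.ey.pow_right _).eq,
    mul_assoc, mul_inv_eq_iff_eq_mul.1 (conj_zp C.q_pow C.conj j), mul_smul, mul_smul, mul_smul,
    C.e_fix]

theorem kern_pt {k : G} (hk : k ∈ d.kern a) (i j : ZMod p) :
    ∃ j', k • pt y q b i j = pt y q b i j' := by
  obtain ⟨j', hj'⟩ := (C.block i j _).1 (hk.2 _ (C.pt_ne i j))
  exact ⟨j', hj'.symm⟩

theorem zy_stab (i : ZMod p) : zp y i • a = a :=
  zp_mem (H := stabilizer G a) (mem_stabilizer_iff.2 C.y_stab) i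

theorem two_transitive_fix
    (h2 : ∀ j : ZMod p, j ≠ 0 →
      ∃ k ∈ d.kern a, k • b = b ∧ k • pt y q b (0 : ZMod p) 1 = pt y q b (0 : ZMod p) j)
    {k : G} (hk : k ∈ d.kern a) (hkb : k • b = b) : k • pt y q b (1 : ZMod p) 0 = pt y q b (1 : ZMod p) 0 := by
  classical
  have hp : p.Prime := Fact.out
  set D : Finset (ZMod p) := Finset.univ.filter
    fun t => ∃ k ∈ d.kern a, k • b = b ∧ k • pt y q b (1 : ZMod p) 0 = pt y q b (1 : ZMod p) t with hD
  have hmemD : ∀ t, t ∈ D ↔ ∃ k ∈ d.kern a, k • b = b ∧ k • pt y q b (1 : ZMod p) 0 = pt y q b (1 : ZMod p) t := by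
    intro t; simp [hD]
  have h0 : (0 : ZMod p) ∈ D :=
    (hmemD 0).2 ⟨1, one_mem _, one_smul G b, one_smul G _⟩
  have hsD : ∀ t ∈ D, s * t ∈ D := by
    intro t ht
    obtain ⟨k₁, hk₁, hk₁b, hk₁t⟩ := (hmemD t).1 ht
    exact (hmemD _).2 ⟨e * k₁, mul_mem C.e_mem hk₁, by rw [mul_smul, hk₁b, C.e_fix],
      by rw [mul_smul, hk₁t, C.e_pt]⟩
  have hne : D ≠ Finset.univ := by
    intro hu
    have horb : orb (d.kern a ⊓ stabilizer G b) (pt y q b (1 : ZMod p) 0) = d.B a (pt y q b (1 : ZMod p) 0) := by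
      ext v
      rw [mem_orb]
      constructor
      · rintro ⟨n, hn, rfl⟩
        exact hn.1.2 _ (C.pt_ne 1 0)
      · intro hv
        obtain ⟨t, rfl⟩ := (C.block 1 0 v).1 hv
        obtain ⟨k₁, hk₁, hk₁b, hk₁t⟩ := (hmemD t).1 (hu ▸ Finset.mem_univ t)
        exact ⟨k₁, ⟨hk₁, hk₁b⟩, hk₁t⟩
    obtain ⟨g, hg, ⟨n, hn⟩, hgx⟩ := exists_pElement_moves (d.kern a ⊓ stabilizer G b)
      (pt y q b (1 : ZMod p) 0) (by rw [horb, d.card_B a _ (C.pt_ne 1 0).symm])
    refine hgx ?_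
    have hgH : g ∈ stabilizer G a ⊓ stabilizer G b := ⟨hg.1.1, hg.2⟩
    have h1 : orderOf g ∣ Nat.card ↥(stabilizer G a ⊓ stabilizer G b) := by
      rw [← Subgroup.orderOf_mk g hgH]; exact orderOf_dvd_natCard _
    have h3 := Nat.eq_one_of_dvd_coprimes
      (Nat.Coprime.pow_left n ((Nat.Prime.coprime_iff_not_dvd hp).2 (d.not_dvd_two_point C.ne)))
      (orderOf_dvd_of_pow_eq_one hn) h1
    rw [orderOf_eq_one_iff.1 h3, one_smul]
  -- invariance of the numbers of paths
  have hstep : ∀ k₁ ∈ d.kern a, ∀ (n z z' t : ZMod p), k₁ • pt y q b n z = pt y q b n z' → t ∈ D →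
      ∃ t' ∈ D, k₁ • pt y q b (n + 1) (z + t) = pt y q b (n + 1) (z' + t') := by
    intro k₁ hk₁ n z z' t hzz ht
    set g := zp y n * zp q z with hg
    set g' := zp y n * zp q z' with hg'
    have hshift : ∀ (u w : ZMod p), (zp y n * zp q u) • pt y q b (1 : ZMod p) w = pt y q b (n + 1) (u + w) := by
      intro u w
      rw [mul_smul, C.q_pt, C.y_pt]
    have hk₀ : g'⁻¹ * k₁ * g ∈ d.kern a := by
      rw [show g'⁻¹ * k₁ * g = (zp q z')⁻¹ * ((zp y n)⁻¹ * k₁ * zp y n) * zp q z by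
        rw [hg, hg']; group]
      exact mul_mem (mul_mem (inv_mem (zp_mem C.q_mem _)) (d.kern_conj_mem' (C.zy_stab n) hk₁))
        (zp_mem C.q_mem _)
    have hk₀b : (g'⁻¹ * k₁ * g) • b = b := by
      rw [mul_smul, mul_smul, inv_smul_eq_iff]
      exact hzz
    obtain ⟨k₂, hk₂, hk₂b, hk₂t⟩ := (hmemD t).1 ht
    obtain ⟨t', ht'⟩ := C.kern_pt hk₀ 1 t
    refine ⟨t', (hmemD t').2 ⟨g'⁻¹ * k₁ * g * k₂, mul_mem hk₀ hk₂,
      by rw [mul_smul, hk₂b, hk₀b], by rw [mul_smul, hk₂t, ht']⟩, ?_⟩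
    rw [← hshift z t, ← hshift z' t', ← hg, ← hg', ← ht', ← mul_smul, ← mul_smul]
    congr 1
    group
  have hinv : ∀ (n : ℕ), ∀ k₁ ∈ d.kern a, k₁ • b = b → ∀ z z' : ZMod p,
      k₁ • pt y q b (n : ZMod p) z = pt y q b (n : ZMod p) z' → paths D n z' = paths D n z := by
    intro n
    induction n with
    | zero =>
      intro k₁ hk₁ hk₁b z z' h
      rw [Nat.cast_zero] at h
      have e1 : z = 0 ↔ z' = 0 := by
        constructor
        · rintro rfl
          rw [C.pt_zero, hk₁b] at h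
          exact ((C.inj _ _ _ _ (C.pt_zero.trans h)).2).symm
        · rintro rfl
          rw [C.pt_zero] at h
          have h1 : pt y q b (0 : ZMod p) z = b := MulAction.injective k₁ (h.trans hk₁b.symm)
          exact (C.inj _ _ _ _ (h1.trans C.pt_zero.symm)).2
      simp only [paths, e1]
    | succ n ih =>
      intro k₁ hk₁ hk₁b z z' h
      rw [Nat.cast_succ] at h
      choose σ hσ using fun u => C.kern_pt hk₁ (n : ZMod p) u
      have hinjσ : Function.Injective σ := fun u v huv => (C.inj _ _ _ _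
        (MulAction.injective k₁ (show k₁ • pt y q b (n : ZMod p) u = k₁ • pt y q b (n : ZMod p) v by
          rw [hσ, hσ, huv]))).2
      have hmap : ∀ t ∈ D, z' - σ (z - t) ∈ D := by
        intro t ht
        obtain ⟨t', ht', h'⟩ := hstep k₁ hk₁ n (z - t) (σ (z - t)) t (hσ _) ht
        rw [sub_add_cancel, h] at h'
        rw [(C.inj _ _ _ _ h').2, add_sub_cancel_left]
        exact ht'
      have hinjφ : Set.InjOn (fun t => z' - σ (z - t)) (D : Set (ZMod p)) := fun u _ v _ huv =>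
        sub_right_injective (hinjσ (sub_right_injective huv))
      have himg : D.image (fun t => z' - σ (z - t)) = D :=
        Finset.eq_of_subset_of_card_le (fun w hw => by
          obtain ⟨t, ht, rfl⟩ := Finset.mem_image.1 hw
          exact hmap t ht) (by rw [Finset.card_image_of_injOn hinjφ])
      show ∑ t ∈ D, paths D n (z' - t) = ∑ t ∈ D, paths D n (z - t)
      have hsum : ∑ t ∈ D.image (fun t => z' - σ (z - t)), paths D n (z' - t) =
          ∑ t ∈ D, paths D n (z' - t) := by rw [himg]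
      rw [← hsum, Finset.sum_image hinjφ]
      refine Finset.sum_congr rfl fun t _ => ?_
      rw [sub_sub_cancel]
      exact ih k₁ hk₁ hk₁b _ _ (hσ _)
  have hconst : ∀ z : ZMod p, z ≠ 0 → paths D p z = paths D p 1 := by
    intro z hz
    obtain ⟨k₁, hk₁, hk₁b, h⟩ := h2 z hz
    exact hinv p k₁ hk₁ hk₁b 1 z (by rw [ZMod.natCast_self]; exact h)
  have hfin := eq_singleton_zero D h0 hne s C.s0 C.s1 hsD (paths D) (fun z => rfl) (fun i z => rfl)
    hconst
  obtain ⟨t, ht⟩ := C.kern_pt hk 1 0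
  have : t ∈ D := (hmemD t).2 ⟨k, hk, hkb, ht⟩
  rw [hfin, Finset.mem_singleton] at this
  rw [ht, this]

theorem affine_fix
    (haff : ∀ k ∈ d.kern a, ∃ A B : ZMod p, ∀ j, k • pt y q b (0 : ZMod p) j = pt y q b (0 : ZMod p) (A * j + B))
    {k : G} (hk : k ∈ d.kern a) (hkb : k • b = b) : k • pt y q b (1 : ZMod p) 0 = pt y q b (1 : ZMod p) 0 := by
  obtain ⟨A, B, hAB⟩ := haff k hk
  have hB : B = 0 := by
    have h := hAB 0
    rw [C.pt_zero, hkb, mul_zero, zero_add] at h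
    exact ((C.inj _ _ _ _ (C.pt_zero.trans h)).2).symm
  subst hB
  simp only [add_zero] at hAB
  have hkey : ∀ g ∈ d.kern a, ∀ g' ∈ d.kern a,
      (∀ j, g • pt y q b (0 : ZMod p) j = g' • pt y q b (0 : ZMod p) j) → g = g' := by
    intro g hg g' hg' h
    refine (inv_mul_eq_one.1 (d.kern_faithful (a := a) (b := b) C.ne
      (mul_mem (inv_mem hg') hg) fun c hc => ?_)).symm
    obtain ⟨j, rfl⟩ := (C.block 0 0 c).1 (by rw [C.pt_zero]; exact hc)
    rw [mul_smul, h j, inv_smul_smul]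
  have hqk : k * q = zp q A * k := by
    refine hkey _ (mul_mem hk C.q_mem) _ (mul_mem (zp_mem C.q_mem _) hk) fun j => ?_
    have e1 := C.q_pt (0 : ZMod p) j 1
    rw [zp_one] at e1
    rw [mul_smul, mul_smul, e1, hAB, hAB, C.q_pt, mul_add, mul_one]
  have hek : e * k = k * e := by
    refine hkey _ (mul_mem C.e_mem hk) _ (mul_mem hk C.e_mem) fun j => ?_
    rw [mul_smul, mul_smul, hAB, C.e_pt, C.e_pt, hAB, mul_left_comm]
  obtain ⟨t, ht⟩ := C.kern_pt hk 1 0
  -- `t = 0` since the translate of `k` commutes with `e`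
  have h1 : e • pt y q b (1 : ZMod p) t = pt y q b (1 : ZMod p) t := by
    rw [← ht, ← mul_smul, hek, mul_smul, C.e_pt, mul_zero]
  rw [C.e_pt] at h1
  have h2 : (s - 1) * t = 0 := by rw [sub_mul, one_mul, (C.inj _ _ _ _ h1).2, sub_self]
  rw [ht, (mul_eq_zero.1 h2).resolve_left (sub_ne_zero.2 C.s1)]

theorem kern_fix {k : G} (hk : k ∈ d.kern a) (hkb : k • b = b) :
    k • pt y q b (1 : ZMod p) 0 = pt y q b (1 : ZMod p) 0 := by
  classical
  letI act : MulAction ↥(d.kern a) ↥(d.B a b) :=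
    { smul := fun g c => ⟨(g : G) • (c : Ω), by
        have h := g.2.2 c (d.ne_of_mem C.ne c.2)
        rwa [d.eq_of_mem a b c C.ne c.2] at h⟩
      one_smul := fun c => Subtype.ext (one_smul G (c : Ω))
      mul_smul := fun g h c => Subtype.ext (mul_smul (g : G) (h : G) (c : Ω)) }
  set φ := toPermHom ↥(d.kern a) ↥(d.B a b) with hφ
  haveI : IsPretransitive φ.range ↥(d.B a b) := ⟨fun u v => by
    obtain ⟨g, hg, hgv⟩ := d.exists_kern_smul (d.kern_ne_bot a) (d.ne_of_mem C.ne u.2).symm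
      (show (v : Ω) ∈ d.B a u by rw [d.eq_of_mem a b u C.ne u.2]; exact v.2)
    exact ⟨⟨φ ⟨g, hg⟩, ⟨g, hg⟩, rfl⟩, Subtype.ext hgv⟩⟩
  have hptmem : ∀ j : ZMod p, pt y q b (0 : ZMod p) j ∈ d.B a b := fun j => by
    have := (C.block 0 0 (pt y q b (0 : ZMod p) j)).2 ⟨j, rfl⟩
    rwa [C.pt_zero] at this
  let E : ZMod p ≃ ↥(d.B a b) := Equiv.ofBijective (fun j => ⟨pt y q b (0 : ZMod p) j, hptmem j⟩)
    ⟨fun i j h => (C.inj _ _ _ _ (congrArg Subtype.val h)).2, fun c => by
      obtain ⟨j, hj⟩ := (C.block 0 0 c).1 (by rw [C.pt_zero]; exact c.2)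
      exact ⟨j, Subtype.ext hj⟩⟩
  have hE : ∀ (n : ℕ) (j : ZMod p), (φ ⟨q, C.q_mem⟩ ^ n) (E j) = E (j + (n : ZMod p)) := by
    intro n j
    rw [← map_pow]
    refine Subtype.ext ?_
    show (((⟨q, C.q_mem⟩ : ↥(d.kern a)) ^ n : ↥(d.kern a)) : G) • pt y q b (0 : ZMod p) j = pt y q b (0 : ZMod p) (j + (n : ZMod p))
    rw [SubmonoidClass.coe_pow]
    show q ^ n • pt y q b (0 : ZMod p) j = _
    rw [← zp_natCast (p := p) C.q_pow, C.q_pt, add_comm]
  have hcard : Fintype.card ↥(d.B a b) = p := by rw [Fintype.card_coe, d.card_B a b C.ne]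
  rcases H36.affine_or_two_transitive hcard (G := φ.range) ⟨⟨q, C.q_mem⟩, rfl⟩ E hE with h | h
  · refine C.affine_fix (fun g hg => ?_) hk hkb
    obtain ⟨A, B, hAB⟩ := h (φ ⟨g, hg⟩) ⟨_, rfl⟩
    exact ⟨A, B, fun j => congrArg Subtype.val (hAB j)⟩
  · refine C.two_transitive_fix (fun j hj => ?_) hk hkb
    have hne : ∀ i : ZMod p, i ≠ 0 → E 0 ≠ E i := fun i hi e => hi (E.injective e).symm
    obtain ⟨⟨σ, g, rfl⟩, h0, h1⟩ :=
      is_two_pretransitive_iff.1 h (hne 1 one_ne_zero) (hne j hj)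
    refine ⟨g, g.2, ?_, congrArg Subtype.val h1⟩
    have h0' : (g : G) • pt y q b (0 : ZMod p) 0 = pt y q b (0 : ZMod p) 0 := congrArg Subtype.val h0
    rwa [C.pt_zero] at h0'

theorem kern_comm {k : G} (hk : k ∈ d.kern a) : y * k = k * y := by
  have hkey : ∀ l : ZMod p, (y * k) • pt y q b (0 : ZMod p) l = (k * y) • pt y q b (0 : ZMod p) l := by
    intro l
    obtain ⟨m, hm⟩ := C.kern_pt hk 0 l
    have hg : zp q (-m) * k * zp q l ∈ d.kern a :=
      mul_mem (mul_mem (zp_mem C.q_mem _) hk) (zp_mem C.q_mem _)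
    have hgb : (zp q (-m) * k * zp q l) • b = b := by
      conv_lhs => rw [← C.pt_zero]
      rw [mul_smul, mul_smul, C.q_pt, add_zero, hm, C.q_pt, neg_add_cancel, C.pt_zero]
    have h1 := C.kern_fix hg hgb
    rw [mul_smul, mul_smul, C.q_pt, add_zero] at h1
    obtain ⟨r, hr⟩ := C.kern_pt hk 1 l
    rw [hr, C.q_pt] at h1
    have h2 : r = m := by
      have := (C.inj _ _ _ _ h1).2
      exact (neg_add_eq_zero.1 this).symm
    have hy1 : ∀ u : ZMod p, y • pt y q b (0 : ZMod p) u = pt y q b (1 : ZMod p) u := fun u => by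
      have := C.y_pt 0 u 1
      rwa [zp_one, add_zero] at this
    rw [mul_smul, mul_smul, hm, hy1, hy1, hr, h2]
  have h3 : k⁻¹ * (y⁻¹ * k * y) = 1 := by
    refine d.kern_faithful C.ne (mul_mem (inv_mem hk) (d.kern_conj_mem' C.y_stab hk)) fun c hc => ?_
    obtain ⟨l, rfl⟩ := (C.block 0 0 c).1 (by rw [C.pt_zero]; exact hc)
    rw [show k⁻¹ * (y⁻¹ * k * y) = k⁻¹ * y⁻¹ * (k * y) by group, mul_smul, ← hkey l, ← mul_smul,
      show k⁻¹ * y⁻¹ * (y * k) = 1 by group, one_smul]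
  have h4 := inv_mul_eq_one.1 h3
  calc y * k = y * (y⁻¹ * k * y) := by rw [← h4]
    _ = k * y := by group

theorem fix_shift {k : G} (hk : k ∈ d.kern a) (i i' j : ZMod p)
    (h : k • pt y q b i j = pt y q b i j) : k • pt y q b i' j = pt y q b i' j := by
  have h1 : pt y q b i' j = zp y (i' - i) • pt y q b i j := by rw [C.y_pt, sub_add_cancel]
  have h2 : Commute k (zp y (i' - i)) := Commute.pow_right (show Commute k y from (C.kern_comm hk).symm) _
  rw [h1, ← mul_smul, h2.eq, mul_smul, h]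

/-- The conjugate of `e` fixing the column `j`. -/
theorem column_elt (j : ZMod p) : zp q j * e * zp q (-j) ∈ d.kern a ∧
    ∀ i j', (zp q j * e * zp q (-j)) • pt y q b i j' = pt y q b i j' ↔ j' = j := by
  refine ⟨mul_mem (mul_mem (zp_mem C.q_mem _) C.e_mem) (zp_mem C.q_mem _), fun i j' => ?_⟩
  rw [mul_smul, mul_smul, C.q_pt, C.e_pt, C.q_pt]
  constructor
  · intro h
    have h1 := (C.inj _ _ _ _ h).2
    have h2 : (s - 1) * (j' - j) = 0 := by linear_combination h1
    exact sub_eq_zero.1 ((mul_eq_zero.1 h2).resolve_left (sub_ne_zero.2 C.s1))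
  · rintro rfl
    rw [neg_add_cancel, mul_zero, add_zero]

theorem grid {g : G} (hga : g • a = a) {i j i' j' : ZMod p}
    (h : g • pt y q b i j = pt y q b i j) (h' : g • pt y q b i' j' = pt y q b i' j') :
    g • pt y q b i j' = pt y q b i j' := by
  have hbl : g • pt y q b i j' ∈ d.B a (pt y q b i j) := by
    have h1 := d.mem_block_smul hga ((C.block i j (pt y q b i j')).2 ⟨j', rfl⟩)
    rwa [h] at h1
  obtain ⟨j'', hj''⟩ := (C.block i j _).1 hbl
  obtain ⟨hkK, hkfix⟩ := C.column_elt j'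
  set k := zp q j' * e * zp q (-j') with hk
  have h2 : (g⁻¹ * k * g) • pt y q b i' j' = pt y q b i' j' := by
    rw [mul_smul, mul_smul, h', (hkfix i' j').2 rfl, inv_smul_eq_iff, h']
  have h3 := C.fix_shift (d.kern_conj_mem' hga hkK) i' i j' h2
  rw [mul_smul, mul_smul, ← hj'', inv_smul_eq_iff] at h3
  have h4 := (hkfix i j'').1 (by rw [h3, ← hj''])
  rw [← hj'', h4]

theorem line_cases {U : Subgroup G} (hU : ∀ g ∈ U, g • a = a ∧ g • b = b) {L : Finset Ω}
    (hL : ∀ x, x ∈ L ↔ ∀ g ∈ U, g • x = x) (hcard : L.card = p + 1) :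
    L = insert a (d.B a b) ∨
      L = insert a (Finset.univ.image fun i : ZMod p => pt y q b i 0) := by
  classical
  have hp : p.Prime := Fact.out
  have haL : a ∈ L := (hL a).2 fun g hg => (hU g hg).1
  have hbL : b ∈ L := (hL b).2 fun g hg => (hU g hg).2
  set T : Finset (ZMod p × ZMod p) := Finset.univ.filter fun z => pt y q b z.1 z.2 ∈ L with hT
  have hmemT : ∀ z, z ∈ T ↔ pt y q b z.1 z.2 ∈ L := fun z => by simp [hT]
  have himg : L = insert a (T.image fun z => pt y q b z.1 z.2) := by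
    ext v
    rw [Finset.mem_insert, Finset.mem_image]
    constructor
    · intro hv
      by_cases hva : v = a
      · exact Or.inl hva
      · obtain ⟨i, j, rfl⟩ := C.surj v hva
        exact Or.inr ⟨(i, j), (hmemT _).2 hv, rfl⟩
    · rintro (rfl | ⟨z, hz, rfl⟩)
      · exact haL
      · exact (hmemT z).1 hz
  have hinj : Function.Injective fun z : ZMod p × ZMod p => pt y q b z.1 z.2 := fun z w h =>
    Prod.ext (C.inj _ _ _ _ h).1 (C.inj _ _ _ _ h).2
  have hTcard : T.card = p := by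
    have h1 := hcard
    rw [himg, Finset.card_insert_of_notMem, Finset.card_image_of_injective _ hinj] at h1
    · omega
    · rintro h
      obtain ⟨z, -, hz⟩ := Finset.mem_image.1 h
      exact C.pt_ne _ _ hz
  have hprod : T = (T.image Prod.fst) ×ˢ (T.image Prod.snd) := by
    ext ⟨i, j⟩
    rw [Finset.mem_product, Finset.mem_image, Finset.mem_image]
    constructor
    · exact fun h => ⟨⟨_, h, rfl⟩, ⟨_, h, rfl⟩⟩
    · rintro ⟨⟨⟨i₁, j₁⟩, h1, e1⟩, ⟨⟨i₂, j₂⟩, h2, e2⟩⟩
      cases e1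
      cases e2
      exact (hmemT _).2 ((hL _).2 fun g hg => C.grid (hU g hg).1
        ((hL _).1 ((hmemT _).1 h1) g hg) ((hL _).1 ((hmemT _).1 h2) g hg))
  have h00 : ((0 : ZMod p), (0 : ZMod p)) ∈ T := (hmemT _).2 (C.pt_zero.symm ▸ hbL)
  have hc := hTcard
  rw [hprod, Finset.card_product] at hc
  have hsub : ∀ S : Finset (ZMod p), S.card = 1 → (0 : ZMod p) ∈ S → S = {0} := by
    intro S hS h0
    exact (Finset.eq_of_subset_of_card_le (Finset.singleton_subset_iff.2 h0)
      (by rw [hS, Finset.card_singleton])).symm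
  have huniv : ∀ S : Finset (ZMod p), S.card = p → S = Finset.univ := fun S hS =>
    Finset.eq_univ_of_card S (by rw [hS, ZMod.card])
  rcases (Nat.dvd_prime hp).1 ⟨_, hc.symm⟩ with h | h
  · left
    rw [h, one_mul] at hc
    rw [himg]
    congr 1
    have hT' : T = {0} ×ˢ Finset.univ := by
      rw [hprod, hsub _ h (Finset.mem_image_of_mem Prod.fst h00), huniv _ hc]
    ext v
    rw [hT', Finset.mem_image]
    constructor
    · rintro ⟨⟨i, j⟩, hz, rfl⟩
      obtain rfl := Finset.mem_singleton.1 (Finset.mem_product.1 hz).1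
      have := (C.block 0 0 (pt y q b (0 : ZMod p) j)).2 ⟨j, rfl⟩
      rwa [C.pt_zero] at this
    · intro hv
      obtain ⟨j, rfl⟩ := (C.block 0 0 v).1 (by rw [C.pt_zero]; exact hv)
      exact ⟨(0, j), Finset.mem_product.2 ⟨Finset.mem_singleton_self _, Finset.mem_univ _⟩, rfl⟩
  · right
    rw [h] at hc
    have hc' : (T.image Prod.snd).card = 1 := (mul_eq_left₀ hp.ne_zero).1 hc
    rw [himg]
    congr 1
    have hT' : T = Finset.univ ×ˢ {0} := by
      rw [hprod, hsub _ hc' (Finset.mem_image_of_mem Prod.snd h00), huniv _ h]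
    ext v
    rw [hT', Finset.mem_image, Finset.mem_image]
    constructor
    · rintro ⟨⟨i, j⟩, hz, rfl⟩
      obtain rfl := Finset.mem_singleton.1 (Finset.mem_product.1 hz).2
      exact ⟨i, Finset.mem_univ _, rfl⟩
    · rintro ⟨i, -, rfl⟩
      exact ⟨(i, 0), Finset.mem_product.2 ⟨Finset.mem_univ _, Finset.mem_singleton_self _⟩, rfl⟩

theorem eq_three : p = 3 := by
  classical
  set 𝓛 := (Finset.univ : Finset Ω).powerset.filter fun L =>
    L.card = p + 1 ∧ ∃ U : Subgroup G, ∀ x, x ∈ L ↔ ∀ g ∈ U, g • x = x with h𝓛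
  have hmem : ∀ L, L ∈ 𝓛 ↔ L.card = p + 1 ∧ ∃ U : Subgroup G, ∀ x, x ∈ L ↔ ∀ g ∈ U, g • x = x :=
    fun L => by simp [h𝓛]
  have hinv : ∀ g : G, ∀ L ∈ 𝓛, L.image (g • ·) ∈ 𝓛 := by
    intro g L hL
    obtain ⟨hLc, U, hU⟩ := (hmem L).1 hL
    refine (hmem _).2 ⟨by rw [Finset.card_image_of_injective _ (MulAction.injective g), hLc],
      U.map (MulAut.conj g).toMonoidHom, fun x => ?_⟩
    constructor
    · intro hx h hh
      obtain ⟨u, hu, rfl⟩ := Subgroup.mem_map.1 hh
      obtain ⟨w, hw, rfl⟩ := Finset.mem_image.1 hx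
      show (g * u * g⁻¹) • g • w = g • w
      rw [mul_smul, mul_smul, inv_smul_smul, (hU w).1 hw u hu]
    · intro h
      refine Finset.mem_image.2 ⟨g⁻¹ • x, (hU _).2 fun u hu => ?_, smul_inv_smul g x⟩
      have h1 : (g * u * g⁻¹) • x = x := h _ (Subgroup.mem_map.2 ⟨u, hu, rfl⟩)
      conv_rhs => rw [← h1]
      rw [mul_smul, mul_smul, inv_smul_smul]
  set c := (𝓛.filter fun L => a ∈ L ∧ b ∈ L).card with hc
  have hconst : ∀ u v : Ω, u ≠ v → (𝓛.filter fun L => u ∈ L ∧ v ∈ L).card = c := by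
    have hle : ∀ u v u' v' : Ω, u ≠ v → u' ≠ v' → (𝓛.filter fun L => u ∈ L ∧ v ∈ L).card ≤
        (𝓛.filter fun L => u' ∈ L ∧ v' ∈ L).card := by
      intro u v u' v' huv huv'
      obtain ⟨g, rfl, rfl⟩ := d.two u v u' v' huv huv'
      refine Finset.card_le_card_of_injOn (fun L => L.image (g • ·)) (fun L hL => ?_)
        fun L _ L' _ e => Finset.image_injective (MulAction.injective g) e
      obtain ⟨hL, hu, hv⟩ := Finset.mem_filter.1 hL
      exact Finset.mem_filter.2
        ⟨hinv g L hL, Finset.mem_image_of_mem _ hu, Finset.mem_image_of_mem _ hv⟩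
    exact fun u v huv => le_antisymm (hle u v a b huv C.ne) (hle a b u v C.ne huv)
  have hdvd := d.line_count 𝓛 (fun L hL => ((hmem L).1 hL).1) c hconst
  have hle2 : c ≤ 2 := by
    have hsub : (𝓛.filter fun L => a ∈ L ∧ b ∈ L) ⊆ {insert a (d.B a b),
        insert a (Finset.univ.image fun i : ZMod p => pt y q b i 0)} := by
      intro L hL
      obtain ⟨hL, ha, hb⟩ := Finset.mem_filter.1 hL
      obtain ⟨hLc, U, hU⟩ := (hmem L).1 hL
      rw [Finset.mem_insert, Finset.mem_singleton]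
      exact C.line_cases (fun g hg => ⟨(hU a).1 ha g hg, (hU b).1 hb g hg⟩) hU hLc
    exact (Finset.card_le_card hsub).trans Finset.card_le_two
  have hpos : 0 < c := by
    refine Finset.card_pos.2 ⟨insert a (Finset.univ.image fun i : ZMod p => pt y q b i 0),
      Finset.mem_filter.2 ⟨(hmem _).2 ⟨?_, d.kern a ⊓ stabilizer G b, fun x => ?_⟩,
        Finset.mem_insert_self _ _, Finset.mem_insert_of_mem (Finset.mem_image.2
          ⟨0, Finset.mem_univ _, C.pt_zero⟩)⟩⟩
    · rw [Finset.card_insert_of_notMem (fun h => by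
          obtain ⟨i, -, hi⟩ := Finset.mem_image.1 h
          exact C.pt_ne i 0 hi),
        Finset.card_image_of_injective _ (fun i j h => (C.inj _ _ _ _ h).1), Finset.card_univ,
        ZMod.card]
    · rw [Finset.mem_insert, Finset.mem_image]
      constructor
      · rintro (rfl | ⟨i, -, rfl⟩) g hg
        · exact hg.1.1
        · refine C.fix_shift hg.1 0 i 0 ?_
          rw [C.pt_zero]; exact hg.2
      · intro h
        by_cases hxa : x = a
        · exact Or.inl hxa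
        · obtain ⟨i, j, rfl⟩ := C.surj x hxa
          have h1 := h e ⟨C.e_mem, C.e_fix⟩
          rw [C.e_pt] at h1
          have h2 : (s - 1) * j = 0 := by rw [sub_mul, one_mul, (C.inj _ _ _ _ h1).2, sub_self]
          rw [(mul_eq_zero.1 h2).resolve_left (sub_ne_zero.2 C.s1)]
          exact Or.inr ⟨i, Finset.mem_univ _, rfl⟩
  have h4 := Nat.le_of_dvd (by omega) hdvd
  have := d.two_lt
  omega

theorem sign_e (h3 : p = 3) : sgn G Ω e = -1 := by
  classical
  subst h3
  have hs : s * s = 1 := by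
    rcases zmod_three_cases s with rfl | rfl | rfl
    · exact absurd rfl C.s0
    · exact absurd rfl C.s1
    · rfl
  have hee : e * e = 1 := by
    refine C.cent _ (mul_mem C.e_mem C.e_mem) ?_ (by rw [mul_smul, C.e_fix, C.e_fix])
    have h1 : e * e * q * (e * e)⁻¹ = q := by
      rw [show e * e * q * (e * e)⁻¹ = e * (e * q * e⁻¹) * e⁻¹ by group, C.conj,
        conj_zp C.q_pow C.conj, hs, zp_one]
    exact mul_inv_eq_iff_eq_mul.1 h1
  rw [sgn_apply, sign_of_sq _ (by rw [← map_mul, hee, map_one]) (m := 3)]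
  · rfl
  have hsupp : (toPermHom G Ω e).support =
      ((Finset.univ : Finset (ZMod 3 × ZMod 3)).filter fun z => z.2 ≠ 0).image
        fun z => pt y q b z.1 z.2 := by
    ext x
    rw [Equiv.Perm.mem_support, Finset.mem_image]
    show e • x ≠ x ↔ _
    constructor
    · intro hx
      have hxa : x ≠ a := fun h => hx (by rw [h]; exact C.e_mem.1)
      obtain ⟨i, j, rfl⟩ := C.surj x hxa
      exact ⟨(i, j), Finset.mem_filter.2 ⟨Finset.mem_univ _, fun (h : j = 0) => hx (by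
        rw [C.e_pt, h, mul_zero])⟩, rfl⟩
    · rintro ⟨⟨i, j⟩, hz, rfl⟩ hx
      rw [C.e_pt] at hx
      have h2 : (s - 1) * j = 0 := by rw [sub_mul, one_mul, (C.inj _ _ _ _ hx).2, sub_self]
      exact (Finset.mem_filter.1 hz).2 ((mul_eq_zero.1 h2).resolve_left (sub_ne_zero.2 C.s1))
  rw [hsupp, Finset.card_image_of_injective _ fun z w h =>
    Prod.ext (C.inj _ _ _ _ h).1 (C.inj _ _ _ _ h).2]
  rfl

end Coord

end Cfsg.Agent.H37.Tsuzuku
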