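import Cfsg.Agent.H37.Tsuzuku.LargeKernel

/-!
# Doubly transitive groups of degree `p² + 1` are doubly primitive, except for degree five
-/

set_option autoImplicit false

namespace Cfsg.Agent.H37.Tsuzuku

open Finset MulAction

namespace Data

variable {G Ω : Type*} [Group G] [Finite G] [MulAction G Ω] [Fintype Ω] [DecidableEq Ω] {p : ℕ}
  (d : Data G Ω p)

/-- The restriction to a doubly transitive subgroup. -/
def restrict (N : Subgroup G)
    (h : ∀ a b c e : Ω, a ≠ b → c ≠ e → ∃ g : N, g • a = c ∧ g • b = e) : Data N Ω p where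
  prime := d.prime
  two_lt := d.two_lt
  card := d.card
  faithful := fun g hg => Subtype.ext (d.faithful g hg)
  two := h
  B := d.B
  not_mem := d.not_mem
  mem_self := d.mem_self
  card_B := d.card_B
  eq_of_mem := d.eq_of_mem
  smul_mem := fun g => d.smul_mem g

include d

/-- There are no such groups. -/
theorem false_of_data : False := by
  classical
  haveI : Fact p.Prime := ⟨d.prime⟩
  obtain ⟨a₀⟩ : Nonempty Ω := (Nat.card_pos_iff.1 (by rw [d.card]; omega)).1
  by_cases hK : Nat.card (d.kern a₀) = p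
  · exact d.small_false fun x => (d.kern_card_eq x a₀).trans hK
  have hbig : ∀ x : Ω, Nat.card (d.kern x) ≠ p := fun x h => hK ((d.kern_card_eq a₀ x).trans h)
  obtain ⟨b₀, hb₀⟩ := d.exists_ne a₀
  obtain ⟨q₀, y₀, e₀, s₀, C₀⟩ := d.exists_coord hb₀.symm (hbig a₀)
  have hp3 : p = 3 := C₀.eq_three
  have hodd : ∀ a b : Ω, a ≠ b → ∃ q e : G, q ∈ d.kern a ∧ q ≠ 1 ∧ q ^ p = 1 ∧
      e ∈ d.kern a ∧ e • b = b ∧ sgn G Ω e = -1 := by
    intro a b hab
    obtain ⟨q, y, e, s, C⟩ := d.exists_coord hab (hbig a)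
    exact ⟨q, e, C.q_mem, C.q_ne, C.q_pow, C.e_mem, C.e_fix, C.sign_e hp3⟩
  set N : Subgroup G := (sgn G Ω).ker with hN
  have htwo : ∀ a b c e : Ω, a ≠ b → c ≠ e → ∃ g : N, g • a = c ∧ g • b = e := by
    intro a b c e hab hce
    obtain ⟨g, hgc, hge⟩ := d.two a b c e hab hce
    rcases Int.units_eq_one_or (sgn G Ω g) with h | h
    · exact ⟨⟨g, MonoidHom.mem_ker.2 h⟩, hgc, hge⟩
    · obtain ⟨-, t, -, -, -, ht, htb, hts⟩ := hodd a b hab
      refine ⟨⟨g * t, MonoidHom.mem_ker.2 (by rw [map_mul, h, hts]; rfl)⟩, ?_, ?_⟩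
      · show (g * t) • a = c
        rw [mul_smul, ht.1, hgc]
      · show (g * t) • b = e
        rw [mul_smul, htb, hge]
  refine (d.restrict N htwo).small_false fun x => ?_
  obtain ⟨y, hy⟩ := d.exists_ne x
  obtain ⟨q, e, hq, hq1, hqp, he, -, hes⟩ := hodd x y hy.symm
  set d' := d.restrict N htwo with hd'
  let f : ↥(d'.kern x) →* ↥(d.kern x) :=
    { toFun := fun g => ⟨((g : N) : G), g.2⟩
      map_one' := rfl
      map_mul' := fun _ _ => rfl }
  have hf : Function.Injective f := fun g g' h =>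
    Subtype.ext (Subtype.ext (congrArg (fun z : ↥(d.kern x) => (z : G)) h))
  have h1 : Nat.card (d'.kern x) ∣ 6 := by
    have h := (Subgroup.card_dvd_of_injective f hf).trans (d.card_kern_dvd hy.symm)
    subst hp3; exact h
  have h2 : 3 ∣ Nat.card (d'.kern x) := by
    have hqN : q ∈ N := MonoidHom.mem_ker.2 (sgn_of_pow_odd (by rw [hp3]; decide) hqp)
    have hq' : (⟨q, hqN⟩ : N) ∈ d'.kern x := hq
    have h3 : orderOf (⟨⟨q, hqN⟩, hq'⟩ : d'.kern x) = 3 := by
      rw [Subgroup.orderOf_mk, Subgroup.orderOf_mk, ← hp3]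
      exact orderOf_eq_prime hqp hq1
    exact h3 ▸ orderOf_dvd_natCard _
  have h3 : Nat.card (d'.kern x) ≠ 6 := by
    intro h6
    have hle : Nat.card (d.kern x) ≤ 6 := by
      have := Nat.le_of_dvd (Nat.factorial_pos p) (d.card_kern_dvd hy.symm)
      subst hp3; exact this
    have hbij : Function.Bijective f := by
      rw [Nat.bijective_iff_injective_and_card]
      exact ⟨hf, le_antisymm (Nat.card_le_card_of_injective f hf) (by omega)⟩
    obtain ⟨g, hg⟩ := hbij.2 ⟨e, he⟩
    have hge : ((g : N) : G) = e := congrArg (fun z : ↥(d.kern x) => (z : G)) hg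
    have h4 : sgn G Ω e = 1 := hge ▸ (g : N).2
    rw [hes] at h4
    exact absurd h4 (by decide)
  have h5 : Nat.card (d'.kern x) = 3 := by
    have h4 := Nat.le_of_dvd (by norm_num) h1
    interval_cases h : Nat.card (d'.kern x) <;> omega
  exact h5.trans hp3.symm

end Data

section Main

variable {G Ω : Type*} [Group G] [Finite G] [MulAction G Ω] [Fintype Ω] [DecidableEq Ω]
  [FaithfulSMul G Ω]

/-- A doubly transitive group of degree five whose point stabiliser preserves pairs has order 20. -/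
theorem card_eq_twenty (hΩ : Fintype.card Ω = 5)
    (two : ∀ a b c e : Ω, a ≠ b → c ≠ e → ∃ g : G, g • a = c ∧ g • b = e) (a : Ω)
    (B : Ω → Finset Ω) (hmem : ∀ u, u ≠ a → u ∈ B u) (hna : ∀ u, u ≠ a → a ∉ B u)
    (hcard : ∀ u, u ≠ a → (B u).card = 2) (heq : ∀ u v, u ≠ a → v ∈ B u → B v = B u)
    (hsm : ∀ g : G, g • a = a → ∀ u v, u ≠ a → v ∈ B u → g • v ∈ B (g • u)) :
    Nat.card G = 20 := by
  classical
  have hne : ∀ g : G, g • a = a → ∀ u, u ≠ a → g • u ≠ a := fun g hg u hu h =>
    hu (MulAction.injective g (h.trans hg.symm))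
  -- no element of order three fixes a point
  have h3 : ∀ g : G, g • a = a → g ^ 3 = 1 → g = 1 := by
    intro g hga hg
    refine FaithfulSMul.eq_of_smul_eq_smul (α := Ω) fun u => ?_
    rw [one_smul]
    by_cases hu : u = a
    · rw [hu, hga]
    by_contra hgu
    have hu1 := hne g hga u hu
    have hu2 := hne g hga _ hu1
    have e3 : g • g • g • u = u := by
      rw [← mul_smul, ← mul_smul, show g * g * g = g ^ 3 by rw [pow_succ, pow_two], hg, one_smul]
    have hblock : g • u ∈ B u := by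
      by_contra hb
      have hdisj : Disjoint (B u) (B (g • u)) := by
        rw [Finset.disjoint_left]
        intro w hw hw'
        apply hb
        have h1 := (heq _ w hu1 hw').symm.trans (heq u w hu hw)
        exact h1 ▸ hmem _ hu1
      have hsub : B u ∪ B (g • u) ⊆ Finset.univ.erase a := by
        intro w hw
        refine Finset.mem_erase.2 ⟨?_, Finset.mem_univ _⟩
        rintro rfl
        rcases Finset.mem_union.1 hw with h | h
        · exact hna u hu h
        · exact hna _ hu1 h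
      have hunion := Finset.eq_of_subset_of_card_le hsub (by
        rw [Finset.card_union_of_disjoint hdisj, hcard u hu, hcard _ hu1,
          Finset.card_erase_of_mem (Finset.mem_univ _), Finset.card_univ, hΩ])
      have h2 : g • g • u ∈ B u ∪ B (g • u) := by
        rw [hunion]
        exact Finset.mem_erase.2 ⟨hu2, Finset.mem_univ _⟩
      rcases Finset.mem_union.1 h2 with h | h
      · have h1 := hsm g hga u _ hu h
        rw [e3] at h1
        exact hb ((heq (g • u) u hu1 h1).symm ▸ hmem _ hu1)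
      · have h1 := hsm g⁻¹ (by rw [inv_smul_eq_iff, hga]) (g • u) _ hu1 h
        rw [inv_smul_smul, inv_smul_smul] at h1
        exact hb h1
    have hBu : B u = {u, g • u} := (Finset.eq_of_subset_of_card_le
      (by
        intro w hw
        rcases Finset.mem_insert.1 hw with rfl | hw
        · exact hmem _ hu
        · exact Finset.mem_singleton.1 hw ▸ hblock)
      (by rw [hcard u hu, Finset.card_pair (Ne.symm hgu)])).symm
    have h2 := hsm g hga u _ hu hblock
    rw [heq u _ hu hblock, hBu, Finset.mem_insert, Finset.mem_singleton] at h2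
    rcases h2 with h | h
    · rw [h] at e3
      exact hgu e3
    · exact hgu (MulAction.injective g h)
  haveI : IsPretransitive G Ω := ⟨fun x y => by
    obtain ⟨x', hx'⟩ := Fintype.exists_ne_of_one_lt_card (by omega) x
    obtain ⟨y', hy'⟩ := Fintype.exists_ne_of_one_lt_card (by omega) y
    obtain ⟨g, hg, -⟩ := two x x' y y' hx'.symm hy'.symm
    exact ⟨g, hg⟩⟩
  have hG : Nat.card G = 5 * Nat.card (stabilizer G a) := by
    rw [← (stabilizer G a).index_mul_card, index_stabilizer_of_transitive,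
      Nat.card_eq_fintype_card (α := Ω), hΩ]
  have hinjG : Function.Injective (toPermHom G Ω) := fun g g' h =>
    FaithfulSMul.eq_of_smul_eq_smul (α := Ω) fun x => congrArg (fun σ : Equiv.Perm Ω => σ x) h
  have h120 : 5 * Nat.card (stabilizer G a) ∣ 5 * 24 := by
    have h := Subgroup.card_dvd_of_injective _ hinjG
    rw [Nat.card_perm, Nat.card_eq_fintype_card (α := Ω), hΩ, hG] at h
    exact h
  have h24 : Nat.card (stabilizer G a) ∣ 24 := Nat.dvd_of_mul_dvd_mul_left (by norm_num) h120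
  have hnot3 : ¬ 3 ∣ Nat.card (stabilizer G a) := by
    intro h
    obtain ⟨⟨g, hga⟩, hg⟩ := exists_prime_orderOf_dvd_card' 3 (hp := ⟨Nat.prime_three⟩) h
    rw [Subgroup.orderOf_mk] at hg
    have := h3 g hga (hg ▸ pow_orderOf_eq_one g)
    rw [this, orderOf_one] at hg
    omega
  obtain ⟨b, hb⟩ := Fintype.exists_ne_of_one_lt_card (α := Ω) (by omega) a
  have h4 : 4 ∣ Nat.card (stabilizer G a) := by
    have horb : orbit (stabilizer G a) b = {x | x ≠ a} := by
      ext x
      simp only [mem_orbit_iff, Subtype.exists, Subgroup.mk_smul, mem_stabilizer_iff,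
        Set.mem_setOf_eq, exists_prop]
      constructor
      · rintro ⟨g, hg, rfl⟩
        exact hne g hg b hb
      · intro hx
        obtain ⟨g, hga, hgb⟩ := two a b a x hb.symm (Ne.symm hx)
        exact ⟨g, hga, hgb⟩
    have h := (stabilizer (stabilizer G a) b).index_dvd_card
    rw [index_stabilizer, horb, show {x : Ω | x ≠ a} = ((Finset.univ.erase a : Finset Ω) : Set Ω) by
      ext x; simp, Set.ncard_coe_finset, Finset.card_erase_of_mem (Finset.mem_univ _),
      Finset.card_univ, hΩ] at h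
    exact h
  have h48 : Nat.card (stabilizer G a) = 4 ∨ Nat.card (stabilizer G a) = 8 := by
    have := Nat.le_of_dvd (by norm_num) h24
    obtain ⟨m, hm⟩ := h4
    have hm6 : m ≤ 6 := by omega
    interval_cases m <;>
      first
        | omega
        | (rw [hm] at h24; exact absurd h24 (by decide))
        | (rw [hm] at hnot3; exact absurd (by decide) hnot3)
  -- a normal subgroup of order five
  haveI : Fact (Nat.Prime 5) := ⟨by norm_num⟩
  obtain ⟨P⟩ : Nonempty (Sylow 5 G) := Sylow.nonempty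
  have hPcard : Nat.card (P : Subgroup G) = 5 := by
    obtain ⟨n, hn⟩ := P.isPGroup'.exists_card_eq
    have h1 : 5 ∣ Nat.card (P : Subgroup G) := P.dvd_card_of_dvd_card (by rw [hG]; exact dvd_mul_right _ _)
    have h2 := Subgroup.card_subgroup_dvd_card (P : Subgroup G)
    rw [hG] at h2
    have h3 : Nat.card (P : Subgroup G) ∣ 5 := by
      refine (Nat.Coprime.dvd_of_dvd_mul_right ?_ h2)
      rw [hn]
      refine Nat.Coprime.pow_left n ?_
      rcases h48 with h | h <;> rw [h] <;> decide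
    exact Nat.dvd_antisymm h3 h1
  have hnormal : (P : Subgroup G).Normal := by
    have h1 := card_sylow_modEq_one 5 G
    have h2 : Nat.card (Sylow 5 G) ∣ Nat.card (stabilizer G a) := by
      have h3 := P.card_dvd_index
      have h5 := (P : Subgroup G).index_mul_card
      rw [hPcard, hG, mul_comm 5] at h5
      rwa [Nat.eq_of_mul_eq_mul_right (by norm_num) h5] at h3
    have h3 : Nat.card (Sylow 5 G) = 1 := by
      rw [Nat.ModEq] at h1
      rcases h48 with h | h <;> rw [h] at h2 <;>
        have := Nat.le_of_dvd (by norm_num) h2 <;>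
        interval_cases hh : Nat.card (Sylow 5 G) <;>
        first | rfl | omega
    haveI : Subsingleton (Sylow 5 G) := (Nat.card_eq_one_iff_unique.1 h3).1
    exact P.normal_of_subsingleton
  obtain ⟨c, hc, hc1⟩ := exists_ne_one (H := (P : Subgroup G)) (fun h => by
    rw [h, Subgroup.card_bot] at hPcard; omega)
  have hpow : ∀ z ∈ (P : Subgroup G), ∃ n : ℕ, c ^ n = z := by
    intro z hz
    have hx : (⟨c, hc⟩ : (P : Subgroup G)) ≠ 1 := fun h => hc1 (congrArg Subtype.val h)
    obtain ⟨n, hn⟩ := Submonoid.mem_powers_iff _ _ |>.1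
      (mem_powers_of_prime_card (g' := (⟨z, hz⟩ : (P : Subgroup G))) hPcard hx)
    exact ⟨n, congrArg Subtype.val hn⟩
  have hsemi : ∀ z ∈ (P : Subgroup G), z • a = a → z = 1 := by
    intro z hz hza
    by_contra hz1
    have hx : (⟨z, hz⟩ : (P : Subgroup G)) ≠ 1 := fun h => hz1 (congrArg Subtype.val h)
    refine hz1 (FaithfulSMul.eq_of_smul_eq_smul (α := Ω) fun u => ?_)
    obtain ⟨g, rfl⟩ := exists_smul_eq G a u
    rw [one_smul]
    have h1 := hnormal.conj_mem z hz g⁻¹
    obtain ⟨n, hn⟩ := Submonoid.mem_powers_iff _ _ |>.1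
      (mem_powers_of_prime_card (g' := (⟨g⁻¹ * z * g⁻¹⁻¹, h1⟩ : (P : Subgroup G))) hPcard hx)
    have hn' : z ^ n = g⁻¹ * z * g⁻¹⁻¹ := congrArg Subtype.val hn
    have h2 : z ^ n • a = a := pow_mem (show z ∈ stabilizer G a from hza) n
    rw [hn', inv_inv, mul_smul, mul_smul, inv_smul_eq_iff] at h2
    exact h2
  have htrans : ∀ u : Ω, ∃ n : ℕ, c ^ n • a = u := by
    intro u
    have hbij : Function.Bijective fun z : (P : Subgroup G) => (z : G) • a := by
      rw [Nat.bijective_iff_injective_and_card]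
      refine ⟨fun z w h => ?_, by rw [hPcard, Nat.card_eq_fintype_card, hΩ]⟩
      have h1 := hsemi ((w : G)⁻¹ * z) (mul_mem (inv_mem w.2) z.2)
        (by rw [mul_smul, show (z : G) • a = (w : G) • a from h, inv_smul_smul])
      exact Subtype.ext (inv_mul_eq_one.1 h1).symm
    obtain ⟨z, hz⟩ := hbij.2 u
    obtain ⟨n, hn⟩ := hpow z z.2
    exact ⟨n, by rw [hn]; exact hz⟩
  let f : stabilizer G a → {z : (P : Subgroup G) // z ≠ 1} := fun h =>
    ⟨⟨(h : G) * c * (h : G)⁻¹, hnormal.conj_mem c hc h⟩, fun e =>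
      hc1 (conj_eq_one_iff.1 (congrArg Subtype.val e))⟩
  have hf : Function.Injective f := by
    intro h h' e
    have e' : (h : G) * c * (h : G)⁻¹ = (h' : G) * c * (h' : G)⁻¹ :=
      congrArg Subtype.val (congrArg Subtype.val e)
    have hcomm : Commute ((h' : G)⁻¹ * h) c := by
      show (h' : G)⁻¹ * h * c = c * ((h' : G)⁻¹ * h)
      calc (h' : G)⁻¹ * h * c = (h' : G)⁻¹ * ((h : G) * c * (h : G)⁻¹) * h := by group
        _ = c * ((h' : G)⁻¹ * h) := by rw [e']; group
    refine Subtype.ext (inv_mul_eq_one.1 ?_).symm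
    refine FaithfulSMul.eq_of_smul_eq_smul (α := Ω) fun u => ?_
    obtain ⟨n, rfl⟩ := htrans u
    rw [one_smul, ← mul_smul, (hcomm.pow_right n).eq, mul_smul, mul_smul, h.2, inv_smul_eq_iff.2]
    exact h'.2.symm
  have hle : Nat.card (stabilizer G a) ≤ 4 := by
    haveI : Fintype (P : Subgroup G) := Fintype.ofFinite _
    have := Nat.card_le_card_of_injective f hf
    rwa [Nat.card_eq_fintype_card (α := {z : (P : Subgroup G) // z ≠ 1}),
      Fintype.card_subtype_compl, Fintype.card_subtype_eq, ← Nat.card_eq_fintype_card, hPcard] at this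
  rw [hG]
  omega

/-- The theorem. -/
theorem main (p : ℕ) (hp : p.Prime) (hΩ : Fintype.card Ω = p ^ 2 + 1)
    (h2 : IsMultiplyPretransitive G Ω 2) (a : Ω) :
    IsPreprimitive ↥(stabilizer G a) ↥(SubMulAction.ofStabilizer G a) ∨
      (p = 2 ∧ Nat.card G = 20) := by
  classical
  rw [or_iff_not_imp_left]
  intro hnp
  have two : ∀ a b c e : Ω, a ≠ b → c ≠ e → ∃ g : G, g • a = c ∧ g • b = e :=
    fun _ _ _ _ hab hce => is_two_pretransitive_iff.1 h2 hab hce
  haveI htr : IsPretransitive ↥(stabilizer G a) ↥(SubMulAction.ofStabilizer G a) := ⟨fun x y => by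
    obtain ⟨g, hga, hg⟩ := two a x a y (fun h => x.2 h.symm) (fun h => y.2 h.symm)
    exact ⟨⟨g, hga⟩, Subtype.ext hg⟩⟩
  obtain ⟨Bk, hBk, hns, hnu⟩ : ∃ Bk : Set ↥(SubMulAction.ofStabilizer G a),
      IsBlock ↥(stabilizer G a) Bk ∧ ¬ Bk.Subsingleton ∧ Bk ≠ Set.univ := by
    by_contra hc
    push Not at hc
    refine hnp { isTrivialBlock_of_isBlock := fun {Bk} hBk => ?_ }
    by_cases hs : Bk.Subsingleton
    · exact Or.inl hs
    · exact Or.inr (hc Bk hBk (Set.not_subsingleton_iff.1 hs))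
  obtain ⟨w₀, hw₀⟩ : Bk.Nonempty := by
    by_contra h
    exact hns (Set.not_nonempty_iff_eq_empty.1 h ▸ Set.subsingleton_empty)
  set S : Finset Ω := Finset.univ.filter fun x => ∃ w ∈ Bk, (w : Ω) = x with hSdef
  have hS : ∀ x, x ∈ S ↔ ∃ w ∈ Bk, (w : Ω) = x := fun x => by simp [hSdef]
  have hSa : a ∉ S := fun h => by
    obtain ⟨w, -, e⟩ := (hS a).1 h
    exact w.2 e
  have hScard : S.card = p := by
    have hΩ' : Nat.card ↥(SubMulAction.ofStabilizer G a) = p ^ 2 := by
      have h1 : Nat.card ↥(SubMulAction.ofStabilizer G a) = (Finset.univ.erase a).card := by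
        rw [← Nat.card_eq_finsetCard]
        exact Nat.card_congr (Equiv.subtypeEquivRight fun x => by
          rw [SubMulAction.mem_ofStabilizer_iff, Finset.mem_erase]; simp)
      rw [h1, Finset.card_erase_of_mem (Finset.mem_univ _), Finset.card_univ, hΩ, Nat.add_sub_cancel]
    have h1 : Bk.ncard ∣ p ^ 2 := hΩ' ▸ hBk.ncard_dvd_card ⟨w₀, hw₀⟩
    have h3 : 1 < Bk.ncard := by
      rw [Set.one_lt_ncard_iff_nontrivial]
      exact Set.not_subsingleton_iff.1 hns
    have h4 : Bk.ncard < p ^ 2 := by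
      rw [← hΩ', ← Set.ncard_univ]
      exact Set.ncard_lt_ncard (lt_top_iff_ne_top.2 hnu) (Set.toFinite _)
    have h5 : S.card = Bk.ncard := by
      rw [← Set.ncard_coe_finset, ← Set.ncard_image_of_injective Bk Subtype.val_injective]
      congr 1
      ext x
      rw [Finset.mem_coe, hS, Set.mem_image]
    obtain ⟨i, hi, hie⟩ := (Nat.dvd_prime_pow hp).1 h1
    rw [h5, hie]
    interval_cases i <;> simp_all
  have hblock : ∀ h : G, h • a = a → ∀ u ∈ S, h • u ∈ S → ∀ z ∈ S, h • z ∈ S := by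
    intro h ha u hu hhu z hz
    obtain ⟨wu, hwu, rfl⟩ := (hS u).1 hu
    obtain ⟨wh, hwh, ewh⟩ := (hS _).1 hhu
    obtain ⟨wz, hwz, rfl⟩ := (hS z).1 hz
    open Pointwise in
    have hne : ((⟨h, ha⟩ : ↥(stabilizer G a)) • Bk ∩ Bk).Nonempty :=
      ⟨wh, ⟨wu, hwu, Subtype.ext ewh.symm⟩, hwh⟩
    open Pointwise in
    have heq : (⟨h, ha⟩ : ↥(stabilizer G a)) • Bk = Bk := by
      by_contra hne'
      exact Set.not_disjoint_iff_nonempty_inter.2 hne (isBlock_iff_disjoint_smul_of_ne.1 hBk hne')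
    refine (hS _).2 ⟨(⟨h, ha⟩ : ↥(stabilizer G a)) • wz, ?_, rfl⟩
    rw [← heq]
    exact ⟨wz, hwz, rfl⟩
  have hw₀S : (w₀ : Ω) ∈ S := (hS _).2 ⟨w₀, hw₀, rfl⟩
  have hex : ∀ x y : Ω, x ≠ y → ∃ g : G, g • a = x ∧ g⁻¹ • y ∈ S := by
    intro x y hxy
    obtain ⟨g, hgx, hgy⟩ := two a (w₀ : Ω) x y (fun h => w₀.2 h.symm) hxy
    exact ⟨g, hgx, by rw [← hgy, inv_smul_smul]; exact hw₀S⟩
  let B : Ω → Ω → Finset Ω := fun x y =>
    if h : x ≠ y then S.image ((Classical.choose (hex x y h)) • ·) else ∅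
  have hB : ∀ x y, x ≠ y → ∀ g : G, g • a = x → g⁻¹ • y ∈ S → B x y = S.image (g • ·) := by
    intro x y hxy g hgx hgy
    obtain ⟨hcx, hcy⟩ := Classical.choose_spec (hex x y hxy)
    show dite _ _ _ = _
    rw [dif_pos hxy]
    set g' := Classical.choose (hex x y hxy)
    have key : ∀ g g' : G, g • a = x → g' • a = x → g⁻¹ • y ∈ S → g'⁻¹ • y ∈ S →
        S.image (g' • ·) ⊆ S.image (g • ·) := by
      intro g g' hgx hg'x hgy hg'y v hv
      obtain ⟨z, hz, rfl⟩ := Finset.mem_image.1 hv
      refine Finset.mem_image.2 ⟨g⁻¹ • g' • z, ?_, smul_inv_smul g _⟩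
      rw [← mul_smul]
      refine hblock _ (by rw [mul_smul, hg'x, inv_smul_eq_iff, hgx]) _ hg'y ?_ z hz
      rw [mul_smul, smul_inv_smul]
      exact hgy
    exact Finset.Subset.antisymm (key g g' hgx hcx hgy hcy) (key g' g hcx hgx hcy hgy)
  have B_not : ∀ x y, x ≠ y → x ∉ B x y := by
    intro x y hxy h
    obtain ⟨g, hgx, hgy⟩ := hex x y hxy
    rw [hB x y hxy g hgx hgy, Finset.mem_image] at h
    obtain ⟨z, hz, e⟩ := h
    exact hSa (MulAction.injective g (e.trans hgx.symm) ▸ hz)
  have B_self : ∀ x y, x ≠ y → y ∈ B x y := by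
    intro x y hxy
    obtain ⟨g, hgx, hgy⟩ := hex x y hxy
    rw [hB x y hxy g hgx hgy, Finset.mem_image]
    exact ⟨_, hgy, smul_inv_smul g y⟩
  have B_card : ∀ x y, x ≠ y → (B x y).card = p := by
    intro x y hxy
    obtain ⟨g, hgx, hgy⟩ := hex x y hxy
    rw [hB x y hxy g hgx hgy, Finset.card_image_of_injective _ (MulAction.injective g), hScard]
  have B_eq : ∀ x y z, x ≠ y → z ∈ B x y → B x z = B x y := by
    intro x y z hxy hz
    have hxz : x ≠ z := fun h => B_not x y hxy (h.symm ▸ hz)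
    obtain ⟨g, hgx, hgy⟩ := hex x y hxy
    rw [hB x y hxy g hgx hgy] at hz ⊢
    obtain ⟨w, hw, rfl⟩ := Finset.mem_image.1 hz
    exact hB x _ hxz g hgx (by rw [inv_smul_smul]; exact hw)
  have B_smul : ∀ (g : G) (x y z : Ω), g • z ∈ B (g • x) (g • y) ↔ z ∈ B x y := by
    intro g x y z
    by_cases hxy : x = y
    · subst hxy
      simp [B]
    · obtain ⟨g₀, hgx, hgy⟩ := hex x y hxy
      rw [hB x y hxy g₀ hgx hgy,
        hB (g • x) (g • y) (fun h => hxy (MulAction.injective g h)) (g * g₀) (by rw [mul_smul, hgx])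
          (by rw [mul_inv_rev, mul_smul, inv_smul_smul]; exact hgy),
        Finset.mem_image, Finset.mem_image]
      simp only [mul_smul, smul_left_cancel_iff]
  by_cases hp2 : p = 2
  · subst hp2
    refine ⟨rfl, card_eq_twenty (by rw [hΩ]; norm_num) two a (fun u => B a u)
      (fun u hu => B_self a u hu.symm) (fun u hu => B_not a u hu.symm)
      (fun u hu => B_card a u hu.symm) (fun u v hu hv => B_eq a u v hu.symm hv) fun g hga u v _ hv => ?_⟩
    have h := (B_smul g a u v).2 hv
    rwa [hga] at h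
  · exfalso
    have d : Data G Ω p :=
      { prime := hp
        two_lt := by have := hp.two_le; omega
        card := by rw [Nat.card_eq_fintype_card, hΩ]
        faithful := fun g hg => FaithfulSMul.eq_of_smul_eq_smul (α := Ω) fun x => by
          rw [hg x, one_smul]
        two := two
        B := B
        not_mem := B_not
        mem_self := B_self
        card_B := B_card
        eq_of_mem := B_eq
        smul_mem := B_smul }
    exact d.false_of_data

end Main

end Cfsg.Agent.H37.Tsuzuku
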