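import Cfsg.Agent.H37.Tsuzuku.Frame
import Cfsg.Agent.H7.ZassEven

/-!
# Doubly transitive groups of degree `p² + 1`: the kernel on the blocks of order `p`
-/

set_option autoImplicit false

namespace Cfsg.Agent.H37.Tsuzuku

open Finset MulAction

/-- The sign of an involution. -/
theorem sign_of_sq {α : Type*} [Fintype α] [DecidableEq α] (σ : Equiv.Perm α) (hσ : σ * σ = 1)
    {m : ℕ} (hm : σ.support.card = 2 * m) : Equiv.Perm.sign σ = (-1) ^ m := by
  have h2 : ∀ x ∈ σ.cycleType, x = 2 := by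
    intro x hx
    have h1 := Equiv.Perm.two_le_of_mem_cycleType hx
    have h3 : x ∣ 2 := (Equiv.Perm.dvd_of_mem_cycleType hx).trans
      (orderOf_dvd_of_pow_eq_one (by rw [pow_two]; exact hσ))
    have := Nat.le_of_dvd (by norm_num) h3
    omega
  have hsum := Equiv.Perm.sum_cycleType σ
  rw [Multiset.eq_replicate_card.2 h2, Multiset.sum_replicate, smul_eq_mul, hm] at hsum
  have hc : σ.cycleType.card = m := by omega
  rw [Equiv.Perm.sign_of_cycleType, Equiv.Perm.sum_cycleType, hm, hc, pow_add, pow_mul]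
  simp

/-- The sign of the action. -/
def sgn (G Ω : Type*) [Group G] [MulAction G Ω] [Fintype Ω] [DecidableEq Ω] : G →* ℤˣ :=
  Equiv.Perm.sign.comp (toPermHom G Ω)

theorem sgn_apply {G Ω : Type*} [Group G] [MulAction G Ω] [Fintype Ω] [DecidableEq Ω] (g : G) :
    sgn G Ω g = Equiv.Perm.sign (toPermHom G Ω g) := rfl

theorem sgn_of_pow_odd {G Ω : Type*} [Group G] [MulAction G Ω] [Fintype Ω] [DecidableEq Ω] {g : G}
    {n : ℕ} (hn : Odd n) (h : g ^ n = 1) : sgn G Ω g = 1 := by
  have h1 : sgn G Ω g ^ n = 1 := by rw [← map_pow, h, map_one]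
  obtain ⟨k, rfl⟩ := hn
  rwa [pow_succ, pow_mul, Int.units_sq, one_pow, one_mul] at h1

/-- A non-trivial subgroup has a non-trivial element. -/
theorem exists_ne_one {G : Type*} [Group G] {H : Subgroup G} (h : H ≠ ⊥) : ∃ g ∈ H, g ≠ 1 := by
  by_contra hc
  push Not at hc
  exact h ((Subgroup.eq_bot_iff_forall _).2 hc)

namespace Data

variable {G Ω : Type*} [Group G] [Finite G] [MulAction G Ω] [Fintype Ω] [DecidableEq Ω] {p : ℕ}
  (d : Data G Ω p)
include d

theorem smul_ne' {g : G} {a b : Ω} (hg : g • a = b) {u : Ω} (hu : u ≠ a) : g • u ≠ b := fun h =>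
  hu (MulAction.injective g (h.trans hg.symm))

variable (hK : ∀ x : Ω, Nat.card (d.kern x) = p)
include hK

theorem small_semi {a u : Ω} (hu : u ≠ a) {k : G} (hk : k ∈ d.kern a) (h : k • u = u) :
    k = 1 := by
  obtain ⟨P, hP⟩ := d.exists_reg a
  have heq : P ⊓ d.kern a = d.kern a :=
    Subgroup.eq_of_le_of_card_ge inf_le_right (by rw [hK, d.reg_card_inf hP])
  exact hP.semi k (inf_eq_right.1 heq hk) u hu h

theorem small_pow {a : Ω} {k l : G} (hk : k ∈ d.kern a) (hk1 : k ≠ 1) (hl : l ∈ d.kern a) :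
    ∃ n : ℕ, k ^ n = l := by
  haveI : Fact p.Prime := ⟨d.prime⟩
  have hx : (⟨k, hk⟩ : d.kern a) ≠ 1 := fun h => hk1 (congrArg Subtype.val h)
  obtain ⟨n, hn⟩ := Submonoid.mem_powers_iff _ _ |>.1
    (mem_powers_of_prime_card (g' := (⟨l, hl⟩ : d.kern a)) (hK a) hx)
  exact ⟨n, congrArg Subtype.val hn⟩

theorem small_commute_of_one {a : Ω} {g k : G} (hk : k ∈ d.kern a) (hk1 : k ≠ 1)
    (h : g * k = k * g) : ∀ l ∈ d.kern a, g * l = l * g := by
  intro l hl
  obtain ⟨n, rfl⟩ := d.small_pow hK hk hk1 hl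
  exact (Commute.pow_right h n).eq

/-- A group fixing two points and exactly `p + 1` points fixes a line. -/
theorem small_line {a b : Ω} (hab : a ≠ b) {U : Subgroup G}
    (hU : ∀ g ∈ U, g • a = a ∧ g • b = b) {F : Finset Ω}
    (hF : ∀ x, x ∈ F ↔ ∀ g ∈ U, g • x = x) (hcard : F.card = p + 1) :
    F = insert a (d.B a b) := by
  classical
  have haF : a ∈ F := (hF a).2 fun g hg => (hU g hg).1
  have hbF : b ∈ F := (hF b).2 fun g hg => (hU g hg).2
  by_cases hc : ∀ g ∈ U, ∀ k ∈ d.kern a, g * k = k * g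
  · have hsub : insert a (d.B a b) ⊆ F := by
      intro v hv
      rcases Finset.mem_insert.1 hv with rfl | hv
      · exact haF
      · refine (hF v).2 fun g hg => ?_
        obtain ⟨k, hk, rfl⟩ := d.exists_kern_smul (d.kern_ne_bot a) hab hv
        rw [← mul_smul, hc g hg k hk, mul_smul, (hU g hg).2]
    refine (Finset.eq_of_subset_of_card_le hsub ?_).symm
    rw [hcard, Finset.card_insert_of_notMem (d.not_mem a b hab), d.card_B a b hab]
  · exfalso
    push Not at hc
    obtain ⟨g, hg, l, hl, hgl⟩ := hc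
    -- at most one fixed point in each block
    have hone : ∀ u v, u ∈ F.erase a → v ∈ F.erase a → v ∈ d.B a u → u = v := by
      intro u v hu hv hvu
      by_contra hne
      obtain ⟨hua, huF⟩ := Finset.mem_erase.1 hu
      obtain ⟨k, hk, rfl⟩ := d.exists_kern_smul (d.kern_ne_bot a) hua.symm hvu
      have hk1 : k ≠ 1 := fun e => hne (by rw [e, one_smul])
      have hvF := (hF _).1 (Finset.mem_erase.1 hv).2 g hg
      have hgu := (hF u).1 huF g hg
      have hgk : g * k * g⁻¹ = k := by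
        have h1 := d.conj_kern (hU g hg).1 hk
        have h2 : (k⁻¹ * (g * k * g⁻¹)) • u = u := by
          rw [mul_smul, mul_smul, mul_smul, show g⁻¹ • u = u from by rw [inv_smul_eq_iff, hgu], hvF,
            inv_smul_smul]
        exact (inv_mul_eq_one.1 (d.small_semi hK hua (mul_mem (inv_mem hk) h1) h2)).symm
      exact hgl (d.small_commute_of_one hK hk hk1 (by rw [← mul_inv_eq_iff_eq_mul]; exact hgk) l hl)
    have hinj : Set.InjOn (d.B a) (F.erase a : Set Ω) := by
      intro u hu v hv e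
      have hu' : u ∈ F.erase a := hu
      have hv' : v ∈ F.erase a := hv
      refine hone u v hu' hv' ?_
      rw [e]; exact d.mem_self a v (Finset.ne_of_mem_erase hv').symm
    have himg : (F.erase a).image (d.B a) = d.blocks a := by
      refine Finset.eq_of_subset_of_card_le (fun X hX => ?_) ?_
      · obtain ⟨u, hu, rfl⟩ := Finset.mem_image.1 hX
        exact d.mem_blocks.2 ⟨u, Finset.ne_of_mem_erase hu, rfl⟩
      · rw [d.card_blocks, Finset.card_image_of_injOn hinj, Finset.card_erase_of_mem haF, hcard]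
        omega
    have hgK : ∀ g' ∈ U, g' = 1 := by
      intro g' hg'
      refine d.small_semi hK hab.symm ⟨(hU g' hg').1, fun x hx => ?_⟩ (hU g' hg').2
      obtain ⟨w, hw, e⟩ := Finset.mem_image.1 (himg.symm ▸ d.mem_blocks.2 ⟨x, hx, rfl⟩ :
        d.B a x ∈ (F.erase a).image (d.B a))
      obtain ⟨hwa, hwF⟩ := Finset.mem_erase.1 hw
      have hxw : x ∈ d.B a w := e ▸ d.mem_self a x hx.symm
      have h1 := d.mem_block_smul (hU g' hg').1 hxw
      rw [(hF w).1 hwF g' hg'] at h1
      rwa [← e]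
    exact hgl (by rw [hgK g hg, one_mul, mul_one])

/-- The elements commuting with the kernel and fixing the block of `u`. -/
def cb (a u : Ω) : Subgroup G where
  carrier := {g | g • a = a ∧ (∀ k ∈ d.kern a, g * k = k * g) ∧ (u ≠ a → g • u ∈ d.B a u)}
  one_mem' := ⟨one_smul G a, fun k _ => by rw [one_mul, mul_one], fun hu => by
    rw [one_smul]; exact d.mem_self a u hu.symm⟩
  mul_mem' := fun {g h} hg hh => ⟨by rw [mul_smul, hh.1, hg.1],
    fun k hk => (Commute.mul_left (hg.2.1 k hk) (hh.2.1 k hk)).eq, fun hu => by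
    have h1 := d.mem_block_smul hg.1 (hh.2.2 hu)
    rw [d.eq_of_mem a u (g • u) hu.symm (hg.2.2 hu)] at h1
    rwa [mul_smul]⟩
  inv_mem' := fun {g} hg => by
    have ha : g⁻¹ • a = a := by rw [inv_smul_eq_iff, hg.1]
    refine ⟨ha, fun k hk => (Commute.inv_left (hg.2.1 k hk)).eq, fun hu => ?_⟩
    have h1 := d.mem_block_smul ha (hg.2.2 hu)
    rw [inv_smul_smul] at h1
    exact d.eq_comm' hu.symm (d.smul_ne ha hu).symm h1

/-- Nothing outside the identity fixes two points and centralises the kernel of the first. -/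
theorem small_trivial {a b : Ω} (hab : a ≠ b) {g : G} (hga : g • a = a) (hgb : g • b = b)
    (hgc : ∀ k ∈ d.kern a, g * k = k * g) : g = 1 := by
  classical
  by_contra hg1
  let A : Subgroup G :=
    { carrier := {x | x • a = a ∧ x • b = b ∧ ∀ k ∈ d.kern a, x * k = k * x}
      one_mem' := ⟨one_smul G a, one_smul G b, fun k _ => by rw [one_mul, mul_one]⟩
      mul_mem' := fun {x y} hx hy => ⟨by rw [mul_smul, hy.1, hx.1], by rw [mul_smul, hy.2.1, hx.2.1],
        fun k hk => (Commute.mul_left (hx.2.2 k hk) (hy.2.2 k hk)).eq⟩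
      inv_mem' := fun {x} hx => ⟨by rw [inv_smul_eq_iff, hx.1], by rw [inv_smul_eq_iff, hx.2.1],
        fun k hk => (Commute.inv_left (hx.2.2 k hk)).eq⟩ }
  set F := (Finset.univ : Finset Ω).filter fun x => ∀ h ∈ A, h • x = x with hFdef
  have hF : ∀ x, x ∈ F ↔ ∀ h ∈ A, h • x = x := fun x => by simp [hFdef]
  have hconj : ∀ x : G, x • a = a → ∀ u v, u ≠ a → v ≠ a →
      d.cb a u = d.cb a v → d.cb a (x • u) ≤ d.cb a (x • v) := by
    intro x hxa u v hu hv he h hh
    have hx' : x⁻¹ • a = a := by rw [inv_smul_eq_iff, hxa]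
    have h1 : x⁻¹ * h * x ∈ d.cb a u := by
      refine ⟨by rw [mul_smul, mul_smul, hxa, hh.1, hx'], fun k hk => ?_, fun _ => ?_⟩
      · have h2 := hh.2.1 _ (d.conj_kern hxa hk)
        calc x⁻¹ * h * x * k = x⁻¹ * (h * (x * k * x⁻¹)) * x := by group
          _ = x⁻¹ * (x * k * x⁻¹ * h) * x := by rw [h2]
          _ = k * (x⁻¹ * h * x) := by group
      · have h2 := d.mem_block_smul hx' (hh.2.2 (d.smul_ne hxa hu))
        rwa [inv_smul_smul, ← mul_smul, ← mul_smul] at h2
    rw [he] at h1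
    refine ⟨hh.1, hh.2.1, fun _ => ?_⟩
    have h2 := d.mem_block_smul hxa (h1.2.2 hv)
    rwa [← mul_smul, show x * (x⁻¹ * h * x) = h * x by group, mul_smul] at h2
  have hcard : ∀ u v, u ≠ a → v ≠ a → Nat.card (d.cb a u) ≤ Nat.card (d.cb a v) := by
    intro u v hu hv
    obtain ⟨x, hxa, rfl⟩ := d.stab_trans hu hv
    refine Nat.card_le_card_of_injective (fun h : d.cb a u =>
      (⟨x * h * x⁻¹, ⟨by rw [mul_smul, mul_smul,
          show x⁻¹ • a = a by rw [inv_smul_eq_iff, hxa], h.2.1, hxa],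
        fun k hk => by
          have h2 := h.2.2.1 _ (d.kern_conj_mem' hxa hk)
          calc x * h * x⁻¹ * k = x * ((h : G) * (x⁻¹ * k * x)) * x⁻¹ := by group
            _ = x * (x⁻¹ * k * x * h) * x⁻¹ := by rw [h2]
            _ = k * (x * h * x⁻¹) := by group,
        fun _ => by
          rw [mul_smul, mul_smul, inv_smul_smul]
          exact d.mem_block_smul hxa (h.2.2.2 hu)⟩⟩ : d.cb a (x • u))) ?_
    intro h h' e
    simpa using congrArg Subtype.val e
  have hout : ∀ v, v ∈ F → v ≠ a → v ∈ d.B a b := by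
    intro v hv hva
    by_contra hvb
    have hle : d.cb a b ≤ d.cb a v := by
      intro h hh
      obtain ⟨k, hk, hkb⟩ := d.exists_kern_smul (d.kern_ne_bot a) hab (hh.2.2 hab.symm)
      have hA : k⁻¹ * h ∈ A := ⟨by rw [mul_smul, hh.1, inv_smul_eq_iff, hk.1],
        by rw [mul_smul, ← hkb, inv_smul_smul], fun l hl => by
          have e1 : k⁻¹ * l = l * k⁻¹ := by
            by_cases hk1 : k = 1
            · subst hk1; simp
            · exact (Commute.inv_left (d.small_commute_of_one hK hk hk1 rfl l hl)).eq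
          exact (Commute.mul_left e1 (hh.2.1 l hl)).eq⟩
      have h3 := (hF v).1 hv _ hA
      rw [mul_smul, inv_smul_eq_iff] at h3
      exact ⟨hh.1, hh.2.1, fun _ => h3 ▸ hk.2 v hva⟩
    have heq : d.cb a b = d.cb a v := Subgroup.eq_of_le_of_card_ge hle (hcard _ _ hva hab.symm)
    have htot := d.rel_total a (fun u w => d.cb a u = d.cb a w) (fun _ => rfl) (fun _ _ => Eq.symm)
      (fun _ _ _ => Eq.trans)
      (fun x hxa u w hu hw h => le_antisymm (hconj x hxa u w hu hw h) (hconj x hxa w u hw hu h.symm))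
      (fun u hu w hw => SetLike.ext fun h => by
        have key : ∀ u w, u ≠ a → w ∈ d.B a u → h • a = a → h • u ∈ d.B a u →
            h • w ∈ d.B a w := by
          intro u w hu hw ha hbl
          have h1 := d.mem_block_smul ha hw
          rw [d.eq_of_mem a u _ hu.symm hbl] at h1
          rwa [d.eq_of_mem a u w hu.symm hw]
        have hwa := d.ne_of_mem hu.symm hw
        exact ⟨fun hh => ⟨hh.1, hh.2.1, fun _ => key u w hu hw hh.1 (hh.2.2 hu)⟩,
          fun hh => ⟨hh.1, hh.2.1, fun _ =>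
            key w u hwa (d.mem_comm hu.symm hw) hh.1 (hh.2.2 hwa)⟩⟩)
      hab.symm hva heq hvb
    have hgK : g ∈ d.kern a := ⟨hga, fun x hx => by
      have h1 : g ∈ d.cb a b := ⟨hga, hgc, fun _ => hgb.symm ▸ d.mem_self a b hab⟩
      rw [htot b x hab.symm hx] at h1
      exact h1.2.2 hx⟩
    exact hg1 (d.small_semi hK hab.symm hgK hgb)
  have hFeq : F = insert a (d.B a b) := by
    refine Finset.Subset.antisymm (fun v hv => ?_) (fun v hv => ?_)
    · by_cases hva : v = a
      · exact hva ▸ Finset.mem_insert_self _ _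
      · exact Finset.mem_insert_of_mem (hout v hv hva)
    · rcases Finset.mem_insert.1 hv with rfl | hv
      · exact (hF _).2 fun h hh => hh.1
      · refine (hF v).2 fun h hh => ?_
        obtain ⟨k, hk, rfl⟩ := d.exists_kern_smul (d.kern_ne_bot a) hab hv
        rw [← mul_smul, hh.2.2 k hk, mul_smul, hh.2.1]
  have hline := d.small_line hK hab.symm (U := A) (fun h hh => ⟨hh.2.1, hh.1⟩) hF
    (by rw [hFeq, Finset.card_insert_of_notMem (d.not_mem a b hab), d.card_B a b hab])
  exact d.no_symm hab (hFeq.symm.trans hline)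

theorem small_card_le {a b : Ω} (hab : a ≠ b) :
    Nat.card ↥(stabilizer G a ⊓ stabilizer G b) ≤ p - 1 := by
  classical
  obtain ⟨k, hk, hk1⟩ := exists_ne_one (d.kern_ne_bot a)
  let f : ↥(stabilizer G a ⊓ stabilizer G b) → ↥(((d.B a b).erase b)) := fun g =>
    ⟨((g : G) * k * (g : G)⁻¹) • b, by
      have h1 := d.conj_kern g.2.1 hk
      refine Finset.mem_erase.2 ⟨fun e => hk1 ?_, h1.2 b hab.symm⟩
      have h2 := d.small_semi hK hab.symm h1 e
      rwa [mul_inv_eq_one, mul_eq_left] at h2⟩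
  have hf : Function.Injective f := by
    intro g g' e
    have e' : ((g : G) * k * (g : G)⁻¹) • b = ((g' : G) * k * (g' : G)⁻¹) • b :=
      congrArg Subtype.val e
    have h1 := d.small_semi hK hab.symm
      (mul_mem (inv_mem (d.conj_kern g'.2.1 hk)) (d.conj_kern g.2.1 hk))
      (u := b) (by rw [mul_smul, e', inv_smul_smul])
    rw [inv_mul_eq_one] at h1
    have h2 : ((g' : G)⁻¹ * g) * k = k * ((g' : G)⁻¹ * g) := by
      have := congrArg (fun x => (g' : G)⁻¹ * x * g) h1
      group at this ⊢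
      exact this.symm
    have h3 := d.small_trivial hK hab (g := (g' : G)⁻¹ * g)
      (by rw [mul_smul, g.2.1, inv_smul_eq_iff, g'.2.1])
      (by rw [mul_smul, g.2.2, inv_smul_eq_iff, g'.2.2])
      (d.small_commute_of_one hK hk hk1 h2)
    exact Subtype.ext (inv_mul_eq_one.1 h3).symm
  have := Nat.card_le_card_of_injective f hf
  rwa [Nat.card_eq_finsetCard, Finset.card_erase_of_mem (d.mem_self a b hab),
    d.card_B a b hab] at this

theorem small_three {a b c : Ω} (hab : a ≠ b) (hca : c ≠ a) (hcb : c ≠ b) {g : G}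
    (hga : g • a = a) (hgb : g • b = b) (hgc : g • c = c) : g = 1 := by
  classical
  obtain ⟨P, hP⟩ := d.exists_reg a
  have hKP : d.kern a ≤ P := inf_eq_right.1
    (Subgroup.eq_of_le_of_card_ge (inf_le_right : P ⊓ d.kern a ≤ d.kern a)
      (by rw [hK, d.reg_card_inf hP]))
  -- `P` is the centraliser of the kernel
  have hmemP : ∀ h : G, h • a = a → (∀ k ∈ d.kern a, h * k = k * h) → h ∈ P := by
    intro h ha hc
    obtain ⟨x, hx, hxb⟩ := hP.trans b (h • b) hab.symm (d.smul_ne ha hab.symm)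
    have h1 := d.small_trivial hK hab (g := x⁻¹ * h)
      (by rw [mul_smul, ha, inv_smul_eq_iff, hP.le hx]) (by rw [mul_smul, ← hxb, inv_smul_smul])
      (fun k hk => (Commute.mul_left
        (Commute.inv_left (hP.comm x hx k (hKP hk))) (hc k hk)).eq)
    rw [← inv_mul_eq_one.1 h1]; exact hx
  have hnorm : ∀ h : G, h • a = a → ∀ x ∈ P, h * x * h⁻¹ ∈ P := by
    intro h ha x hx
    refine hmemP _ ?_ fun k hk => ?_
    · rw [mul_smul, mul_smul, show h⁻¹ • a = a by rw [inv_smul_eq_iff, ha], hP.le hx, ha]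
    · have h2 := hP.comm x hx _ (hKP (d.kern_conj_mem' ha hk))
      calc h * x * h⁻¹ * k = h * (x * (h⁻¹ * k * h)) * h⁻¹ := by group
        _ = h * (h⁻¹ * k * h * x) * h⁻¹ := by rw [h2]
        _ = k * (h * x * h⁻¹) := by group
  obtain ⟨x, hx, rfl⟩ := hP.trans b c hab.symm hca
  have hx1 : x ≠ 1 := fun e => hcb (by rw [e, one_smul])
  have hgx : g * x = x * g := by
    have h1 := mul_mem (inv_mem hx) (hnorm g hga x hx)
    have h2 := hP.semi _ h1 b hab.symm (by
      rw [mul_smul, mul_smul, mul_smul, show g⁻¹ • b = b by rw [inv_smul_eq_iff, hgb], hgc,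
        inv_smul_smul])
    rw [← mul_inv_eq_iff_eq_mul]
    exact (inv_mul_eq_one.1 h2).symm
  by_cases hxK : x ∈ d.kern a
  · exact d.small_trivial hK hab hga hgb (d.small_commute_of_one hK hxK hx1 hgx)
  let T : Subgroup G :=
    { carrier := {y | y ∈ P ∧ g * y * g⁻¹ * y⁻¹ ∈ d.kern a}
      one_mem' := ⟨one_mem P, by simp⟩
      mul_mem' := fun {y z} hy hz => ⟨mul_mem hy.1 hz.1, by
        have e : g * (y * z) * g⁻¹ * (y * z)⁻¹ =
            (g * y * g⁻¹) * (g * z * g⁻¹ * z⁻¹) * y⁻¹ := by group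
        rw [e, show (g * y * g⁻¹) * (g * z * g⁻¹ * z⁻¹) = (g * z * g⁻¹ * z⁻¹) * (g * y * g⁻¹) from
          hP.comm _ (hnorm g hga y hy.1) _ (hKP hz.2), mul_assoc]
        exact mul_mem hz.2 hy.2⟩
      inv_mem' := fun {y} hy => ⟨inv_mem hy.1, by
        have e : g * y⁻¹ * g⁻¹ * y⁻¹⁻¹ = (g * y * g⁻¹)⁻¹ * y := by group
        rw [e, hP.comm _ (inv_mem (hnorm g hga y hy.1)) _ hy.1,
          show y * (g * y * g⁻¹)⁻¹ = (g * y * g⁻¹ * y⁻¹)⁻¹ by group]
        exact inv_mem hy.2⟩ }
  have hKT : d.kern a ≤ T := fun k hk =>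
    ⟨hKP hk, mul_mem (d.conj_kern hga hk) (inv_mem hk)⟩
  have hxT : x ∈ T := ⟨hx, by
    rw [show g * x * g⁻¹ * x⁻¹ = 1 by rw [hgx]; group]
    exact one_mem _⟩
  have hTP : T = P := by
    have hle : T ≤ P := fun y hy => hy.1
    refine Subgroup.eq_of_le_of_card_ge hle ?_
    have h1 : Nat.card T ∣ p ^ 2 := hP.card ▸ Subgroup.card_dvd_of_le hle
    obtain ⟨i, hi, hie⟩ := (Nat.dvd_prime_pow d.prime).1 h1
    have h2 : ¬ Nat.card T ≤ p := fun h =>
      hxK ((Subgroup.eq_of_le_of_card_ge hKT (by rw [hK]; exact h)).symm ▸ hxT)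
    have hi2 : i = 2 := by
      by_contra hne
      apply h2
      rw [hie]
      calc p ^ i ≤ p ^ 1 := Nat.pow_le_pow_right d.prime.pos (by omega)
        _ = p := pow_one p
    rw [hP.card, hie, hi2]
  refine d.small_semi hK hab.symm ⟨hga, fun u hu => ?_⟩ hgb
  obtain ⟨y, hy, rfl⟩ := hP.trans b u hab.symm hu
  have hyT : y ∈ T := hTP.symm ▸ hy
  rw [← mul_smul, show g * y = (g * y * g⁻¹ * y⁻¹) * y * g by group, mul_smul, mul_smul, hgb]
  exact hyT.2.2 _ hu

/-- The kernel on the blocks does not have order `p`. -/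
theorem small_false : False := by
  classical
  haveI : Fact p.Prime := ⟨d.prime⟩
  obtain ⟨a⟩ : Nonempty Ω := (Nat.card_pos_iff.1 (by rw [d.card]; omega)).1
  obtain ⟨b, hb⟩ := d.exists_ne a
  have hab : a ≠ b := hb.symm
  have hp2 := d.two_lt
  rcases Nat.even_or_odd (Nat.card ↥(stabilizer G a ⊓ stabilizer G b)) with heven | hodd
  · obtain ⟨g, hg, hg1⟩ : ∃ g ∈ stabilizer G a ⊓ stabilizer G b, g ≠ 1 := by
      refine exists_ne_one fun h => ?_
      rw [h, Subgroup.card_bot] at heven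
      exact absurd heven (by decide)
    have Z : H7.ZHyp G Ω :=
      { faithful := ⟨fun {g h} e => by
          have h1 := d.faithful (h⁻¹ * g) fun x => by rw [mul_smul, e, inv_smul_smul]
          exact (inv_mul_eq_one.1 h1).symm⟩
        two := fun h1 h2 => d.two _ _ _ _ h1 h2
        three := fun g a b c h1 h2 h3 ha hb hc => d.small_three hK h1 h3.symm h2.symm ha hb hc
        fix := ⟨g, hg1, a, b, hab, hg.1, hg.2⟩ }
    have h1 := Z.even_le hab heven
    have h2 := d.small_card_le hK hab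
    rw [← Nat.card_eq_fintype_card, d.card] at h1
    have h3 : 3 * p ≤ p ^ 2 := by rw [pow_two]; exact Nat.mul_le_mul_right p hp2
    omega
  · obtain ⟨r, hr⟩ := d.prime.odd_of_ne_two (by omega)
    have hnP : Odd (p ^ 2) := ⟨2 * r * r + 2 * r, by rw [hr]; ring⟩
    have hst : ∀ x : Ω, Odd (Nat.card (stabilizer G x)) := by
      intro x
      obtain ⟨y, hy⟩ := d.exists_ne x
      rw [d.card_stab hy.symm]
      refine hnP.mul ?_
      obtain ⟨g, rfl, rfl⟩ := d.two a b x y hab hy.symm
      convert hodd using 1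
      refine Nat.card_congr
        { toFun := fun h => ⟨g⁻¹ * h * g, ?_, ?_⟩
          invFun := fun h => ⟨g * h * g⁻¹, ?_, ?_⟩
          left_inv := fun h => Subtype.ext (by simp [mul_assoc])
          right_inv := fun h => Subtype.ext (by simp [mul_assoc]) }
      · show (g⁻¹ * (h : G) * g) • a = a
        rw [mul_smul, mul_smul, h.2.1, inv_smul_smul]
      · show (g⁻¹ * (h : G) * g) • b = b
        rw [mul_smul, mul_smul, h.2.2, inv_smul_smul]
      · show (g * (h : G) * g⁻¹) • g • a = g • a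
        rw [mul_smul, mul_smul, inv_smul_smul, h.2.1]
      · show (g * (h : G) * g⁻¹) • g • b = g • b
        rw [mul_smul, mul_smul, inv_smul_smul, h.2.2]
    -- transitivity and the degree
    have hG : Nat.card G = (p ^ 2 + 1) * Nat.card (stabilizer G a) := by
      haveI : IsPretransitive G Ω := ⟨fun x y => by
        obtain ⟨x', hx'⟩ := d.exists_ne x
        obtain ⟨y', hy'⟩ := d.exists_ne y
        obtain ⟨g, hg, -⟩ := d.two x x' y y' hx'.symm hy'.symm
        exact ⟨g, hg⟩⟩
      rw [← (stabilizer G a).index_mul_card, index_stabilizer_of_transitive, d.card]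
    have heven2 : 2 ∣ Nat.card G := by
      rw [hG]
      exact (even_iff_two_dvd.1 hnP.add_one).mul_right _
    obtain ⟨t, ht⟩ := exists_prime_orderOf_dvd_card' 2 heven2
    have htt : t * t = 1 := by rw [← pow_two, ← ht, pow_orderOf_eq_one]
    have hfpf : ∀ x : Ω, t • x ≠ x := by
      intro x hx
      have : orderOf t ∣ Nat.card (stabilizer G x) := by
        rw [← Subgroup.orderOf_mk t (mem_stabilizer_iff.2 hx)]
        exact orderOf_dvd_natCard _
      rw [ht] at this
      exact Nat.not_even_iff_odd.2 (hst x) (even_iff_two_dvd.2 this)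
    have hsgn : sgn G Ω t = -1 := by
      rw [sgn_apply, sign_of_sq _ (by rw [← map_mul, htt, map_one]) (m := 2 * r * r + 2 * r + 1)]
      · exact Odd.neg_one_pow ⟨r * r + r, by ring⟩
      · rw [show (toPermHom G Ω t).support = Finset.univ from
          Finset.eq_univ_of_forall fun x => Equiv.Perm.mem_support.2 (hfpf x), d.card_univ_eq, hr]
        ring
    -- the even elements are transitive
    have hPle : ∀ x ∈ (sgn G Ω).ker, ∀ y : G, y * x * y⁻¹ ∈ (sgn G Ω).ker := fun x hx y =>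
      (sgn G Ω).normal_ker.conj_mem x hx y
    obtain ⟨P, hP⟩ := d.exists_reg a
    have hPker : P ≤ (sgn G Ω).ker := by
      intro x hx
      refine MonoidHom.mem_ker.2 (sgn_of_pow_odd hnP ?_)
      have h1 : (⟨x, hx⟩ : P) ^ p ^ 2 = 1 := by rw [← hP.card]; exact pow_card_eq_one'
      exact congrArg Subtype.val h1
    obtain ⟨y, hy, hya⟩ : ∃ y ∈ (sgn G Ω).ker, y • a ≠ a := by
      by_contra hc
      push Not at hc
      have hbot : (sgn G Ω).ker = ⊥ := (Subgroup.eq_bot_iff_forall _).2 fun z hz => d.faithful z fun w => by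
        obtain ⟨v, hv⟩ := d.exists_ne w
        obtain ⟨g', hg', -⟩ := d.two a b w v hab hv.symm
        have h1 := hc _ (hPle z hz g'⁻¹)
        rwa [inv_inv, mul_smul, mul_smul, hg', inv_smul_eq_iff, hg'] at h1
      have h1 := Subgroup.card_le_of_le hPker
      rw [hbot, Subgroup.card_bot, hP.card] at h1
      nlinarith
    have horb : ∀ x : Ω, ∃ z ∈ (sgn G Ω).ker, z • a = x := by
      intro x
      by_cases hx : x = a
      · exact ⟨1, one_mem _, by rw [one_smul, hx]⟩
      · obtain ⟨w, hw, e⟩ := hP.trans (y • a) x hya hx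
        exact ⟨w * y, mul_mem (hPker hw) hy, by rw [mul_smul, e]⟩
    haveI : IsPretransitive (sgn G Ω).ker Ω := ⟨fun x w => by
      obtain ⟨z1, hz1, e1⟩ := horb x
      obtain ⟨z2, hz2, e2⟩ := horb w
      exact ⟨⟨z2 * z1⁻¹, mul_mem hz2 (inv_mem hz1)⟩, by
        rw [Subgroup.mk_smul, mul_smul, ← e1, inv_smul_smul, e2]⟩⟩
    have hdvd : p ^ 2 + 1 ∣ Nat.card (sgn G Ω).ker := by
      rw [← d.card, ← index_stabilizer_of_transitive (sgn G Ω).ker a]
      exact Subgroup.index_dvd_card _
    have hidx : (sgn G Ω).ker.index = 2 := by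
      rw [Subgroup.index_ker, MonoidHom.range_eq_top.2 fun u => ?_, Subgroup.card_top,
        Nat.card_eq_fintype_card, Fintype.card_units_int]
      rcases Int.units_eq_one_or u with rfl | rfl
      · exact ⟨1, map_one _⟩
      · exact ⟨t, hsgn⟩
    have hcardG := (sgn G Ω).ker.index_mul_card
    rw [hidx, hG] at hcardG
    have h1 : p ^ 2 + 1 = 2 * (2 * r * r + 2 * r + 1) := by rw [hr]; ring
    rw [h1, mul_assoc] at hcardG
    have h2 := Nat.eq_of_mul_eq_mul_left two_pos hcardG
    have h3 : Odd (Nat.card (sgn G Ω).ker) := by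
      rw [h2]; exact Odd.mul ⟨r * r + r, by ring⟩ (hst a)
    exact Nat.not_even_iff_odd.2 h3 ((even_iff_two_dvd.2 ⟨_, h1⟩).trans_dvd hdvd)

end Data

end Cfsg.Agent.H37.Tsuzuku
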